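import Cfsg.Agent.SUClassCount.Arith
import Cfsg.Agent.SemiUnitary.Poly

/-! Counting tuples of self-dual polynomials (owner: helper23). -/

set_option autoImplicit false
set_option linter.style.haveILetI false
set_option linter.unusedSectionVars false

namespace Cfsg.Agent.SUClassCount

open Polynomial Cfsg.Agent.SemiUnitary

variable (F : Type*) [Field F] [Fintype F] [StarRing F]

/-- Self-dual monic polynomials with non-zero constant term. -/
def SDPoly : Type _ := {f : F[X] // f.Monic ∧ f.coeff 0 ≠ 0 ∧ SelfDual f}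

/-- Those of degree `d`. -/
def SDDeg (d : ℕ) : Type _ := {f : SDPoly F // f.1.natDegree = d}

/-- Those of degree `d` with constant term `a`. -/
def SDConst (d : ℕ) (a : F) : Type _ := {f : SDDeg F d // f.1.1.coeff 0 = a}

/-- Scalars of norm one. -/
def NormOne : Type _ := {a : F // a * star a = 1}

variable {F}

/-- The contribution of a polynomial to the determinant. -/
def pdet (f : F[X]) : F := (-1) ^ f.natDegree * f.coeff 0

variable (F) in
/-- Weighted tuples, weights `2, …, J + 1`. -/
def Tup (J n : ℕ) : Type _ :=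
  {f : Fin J → SDPoly F // ∑ j : Fin J, ((j : ℕ) + 2) * (f j).1.natDegree = n}

/-- The determinant of a tuple. -/
def tdet {J n : ℕ} (f : Tup F J n) : F := ∏ j : Fin J, pdet (f.1 j).1 ^ ((j : ℕ) + 2)

variable (F) in
/-- Tuples with prescribed determinant. -/
def TupDet (J n : ℕ) (v : F) : Type _ := {f : Tup F J n // tdet f = v}

theorem sd_coeff {f : F[X]} (hf : f.Monic) (h0 : f.coeff 0 ≠ 0) (hsd : SelfDual f) :
    f.coeff 0 * star (f.coeff 0) = 1 ∧ ∀ i ≤ f.natDegree,
      star (f.coeff (f.natDegree - i)) = (f.coeff 0)⁻¹ * f.coeff i := by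
  obtain ⟨u, hu⟩ := hsd.symm
  obtain ⟨c, -, hc⟩ := Polynomial.isUnit_iff.1 u.isUnit
  rw [← hc] at hu
  have h : ∀ i ≤ f.natDegree, star (f.coeff (f.natDegree - i)) = f.coeff i * c := fun i hi => by
    have h' := congrArg (fun g : F[X] => g.coeff i) hu
    simp only [coeff_rev, coeff_mul_C, revAt_le hi] at h'
    exact h'.symm
  have h1 := h 0 (Nat.zero_le _)
  rw [Nat.sub_zero, hf.coeff_natDegree, star_one] at h1
  have hc' : c = (f.coeff 0)⁻¹ := eq_inv_of_mul_eq_one_right h1.symm
  have h2 := h _ le_rfl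
  rw [Nat.sub_self, hf.coeff_natDegree, one_mul, hc'] at h2
  refine ⟨by rw [h2, mul_inv_cancel₀ h0], fun i hi => ?_⟩
  rw [h i hi, hc', mul_comm]

theorem card_roots_le (p : F[X]) (hp : p ≠ 0) :
    Nat.card {x : F // p.eval x = 0} ≤ p.natDegree := by
  classical
  rw [Nat.card_eq_fintype_card, Fintype.card_subtype]
  exact card_le_degree_of_subset_roots fun x hx => by
    rw [mem_roots hp]
    exact (Finset.mem_filter.1 hx).2

theorem card_pow_eq (v : F) {j : ℕ} (hj : 1 ≤ j) : Nat.card {x : F // x ^ j = v} ≤ j := by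
  have h := card_roots_le (X ^ j - C v : F[X]) (X_pow_sub_C_ne_zero (by omega) v)
  rw [natDegree_X_pow_sub_C] at h
  refine le_trans (le_of_eq (Nat.card_congr (Equiv.subtypeEquivRight fun x => ?_))) h
  simp [sub_eq_zero]

variable {q : ℕ} (hstar : ∀ x : F, star x = x ^ q) (hcard : Fintype.card F = q ^ 2) (hq : 2 ≤ q)
include hstar hcard hq

theorem card_normOne : Nat.card (NormOne F) ≤ q + 1 := by
  refine le_trans (le_of_eq (Nat.card_congr (Equiv.subtypeEquivRight fun x => ?_)))
    (card_pow_eq (F := F) (1 : F) (j := q + 1) (by omega))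
  rw [hstar, pow_succ', mul_comm]

theorem card_sdConst (d : ℕ) (a : F) :
    Finite (SDConst F (d + 1) a) ∧ Nat.card (SDConst F (d + 1) a) ≤ q ^ d := by
  classical
  set W := {x : F // if Even d then x = 0 else star x = a⁻¹ * x}
  have hW : Nat.card W ≤ q ^ (d % 2) := by
    by_cases he : Even d
    · rw [Nat.even_iff.1 he, pow_zero]
      refine Finite.card_le_one_iff_subsingleton.2 ⟨fun x y => Subtype.ext ?_⟩
      have hx := x.2
      have hy := y.2
      rw [if_pos he] at hx hy
      rw [hx, hy]
    · rw [Nat.not_even_iff.1 he, pow_one]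
      have hne : (X ^ q - C a⁻¹ * X : F[X]) ≠ 0 := fun h => by
        have := congrArg (fun g : F[X] => g.coeff q) h
        simp [coeff_X, show 1 ≠ q by omega] at this
      have hd : (X ^ q - C a⁻¹ * X : F[X]).natDegree ≤ q := by
        refine natDegree_le_iff_coeff_eq_zero.2 fun N hN => ?_
        simp [coeff_X_pow, coeff_X, show N ≠ q by omega, show 1 ≠ N by omega]
      refine le_trans (le_trans (le_of_eq (Nat.card_congr (Equiv.subtypeEquivRight fun x => ?_)))
        (card_roots_le _ hne)) hd
      rw [if_neg he, hstar]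
      simp [sub_eq_zero]
  let φ : SDConst F (d + 1) a → (Fin (d / 2) → F) × W := fun f =>
    (fun i => f.1.1.1.coeff ((i : ℕ) + 1), ⟨if Even d then 0 else f.1.1.1.coeff (d / 2 + 1), by
      split_ifs with he
      · rfl
      · have h := (sd_coeff f.1.1.2.1 f.1.1.2.2.1 f.1.1.2.2.2).2 (d / 2 + 1) (by rw [f.1.2]; omega)
        rw [f.2, f.1.2] at h
        rw [Nat.not_even_iff] at he
        rwa [show d + 1 - (d / 2 + 1) = d / 2 + 1 by omega] at h⟩)
  have hφ : Function.Injective φ := by
    intro f g h
    simp only [φ, Prod.mk.injEq, Subtype.mk.injEq] at h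
    have hf := (sd_coeff f.1.1.2.1 f.1.1.2.2.1 f.1.1.2.2.2).2
    have hg := (sd_coeff g.1.1.2.1 g.1.1.2.2.1 g.1.1.2.2.2).2
    rw [f.2, f.1.2] at hf
    rw [g.2, g.1.2] at hg
    have low : ∀ i, i ≤ (d + 1) / 2 → f.1.1.1.coeff i = g.1.1.1.coeff i := by
      intro i hi
      rcases i with _ | i
      · exact f.2.trans g.2.symm
      · rcases Nat.lt_or_ge i (d / 2) with h' | h'
        · exact congrFun h.1 ⟨i, h'⟩
        · have he : ¬ Even d := by rw [Nat.even_iff]; omega
          have := congrArg Subtype.val h.2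
          simp only [if_neg he] at this
          rwa [show i = d / 2 by omega]
    refine Subtype.ext (Subtype.ext (Subtype.ext (Polynomial.ext fun k => ?_)))
    rcases lt_or_ge (d + 1) k with hk | hk
    · rw [coeff_eq_zero_of_natDegree_lt (by rw [f.1.2]; exact hk),
        coeff_eq_zero_of_natDegree_lt (by rw [g.1.2]; exact hk)]
    rcases Nat.lt_or_ge k ((d + 1) / 2 + 1) with h' | h'
    · exact low k (by omega)
    · apply star_injective
      have e1 := hf (d + 1 - k) (by omega)
      have e2 := hg (d + 1 - k) (by omega)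
      rw [show d + 1 - (d + 1 - k) = k by omega] at e1 e2
      rw [e1, e2, low _ (by omega)]
  refine ⟨Finite.of_injective φ hφ, (Nat.card_le_card_of_injective φ hφ).trans ?_⟩
  rw [Nat.card_prod, Nat.card_fun, Nat.card_fin, Nat.card_eq_fintype_card (α := F), hcard, ← pow_mul]
  refine le_trans (Nat.mul_le_mul_left _ hW) (le_of_eq ?_)
  rw [← pow_add, Nat.div_add_mod]

theorem card_sdDeg (d : ℕ) : Finite (SDDeg F d) ∧ Nat.card (SDDeg F d) ≤ phi q d := by
  classical
  rcases d with _ | d
  · haveI : Subsingleton (SDDeg F 0) := ⟨fun f g => Subtype.ext (Subtype.ext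
      ((f.1.2.1.natDegree_eq_zero.1 f.2).trans (g.1.2.1.natDegree_eq_zero.1 g.2).symm))⟩
    exact ⟨inferInstance, Finite.card_le_one_iff_subsingleton.2 inferInstance⟩
  · haveI := fun a => (card_sdConst hstar hcard hq d a).1
    haveI : Finite (NormOne F) := inferInstanceAs (Finite {a : F // a * star a = 1})
    haveI : Fintype (NormOne F) := Fintype.ofFinite _
    let ψ : SDDeg F (d + 1) → Σ a : NormOne F, SDConst F (d + 1) a.1 := fun f =>
      ⟨⟨f.1.1.coeff 0, (sd_coeff f.1.2.1 f.1.2.2.1 f.1.2.2.2).1⟩, ⟨f, rfl⟩⟩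
    have hψ : Function.Injective ψ := fun f g h => by
      have := congrArg (fun s : Σ a : NormOne F, SDConst F (d + 1) a.1 => s.2.1) h
      exact this
    refine ⟨Finite.of_injective ψ hψ, (Nat.card_le_card_of_injective ψ hψ).trans ?_⟩
    rw [Nat.card_sigma, phi]
    refine (Finset.sum_le_sum fun a _ => (card_sdConst hstar hcard hq d a.1).2).trans ?_
    rw [Finset.sum_const, Finset.card_univ, smul_eq_mul, ← Nat.card_eq_fintype_card]
    exact Nat.mul_le_mul_right _ (card_normOne hstar hcard hq)

theorem card_tup : ∀ J n, Finite (Tup F J n) ∧ Nat.card (Tup F J n) ≤ cU q J n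
  | 0, n => by
    haveI : Subsingleton (Tup F 0 n) := ⟨fun a b => Subtype.ext (_root_.funext fun i => i.elim0)⟩
    refine ⟨inferInstance, ?_⟩
    by_cases hn : n = 0
    · rw [cU, if_pos hn]
      exact Finite.card_le_one_iff_subsingleton.2 inferInstance
    · haveI : IsEmpty (Tup F 0 n) := ⟨fun a => hn (by simpa using a.2.symm)⟩
      simp
  | J + 1, n => by
    classical
    haveI := fun m => (card_tup J m).1
    haveI := fun d => (card_sdDeg hstar hcard hq d).1
    have hb : ∀ f : Tup F (J + 1) n, (∑ j : Fin J, ((j : ℕ) + 2) * (f.1 j.castSucc).1.natDegree) +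
        (J + 2) * (f.1 (Fin.last J)).1.natDegree = n := by
      intro f
      have h := f.2
      rw [Fin.sum_univ_castSucc] at h
      simpa using h
    let g : Tup F (J + 1) n → Σ d : Fin (n / (J + 2) + 1), SDDeg F d × Tup F J (n - (J + 2) * d) := fun f =>
      ⟨⟨(f.1 (Fin.last J)).1.natDegree, by
          rw [Nat.lt_succ_iff, Nat.le_div_iff_mul_le (by omega), mul_comm]
          have := hb f; omega⟩,
        ⟨f.1 (Fin.last J), rfl⟩, ⟨fun j => f.1 j.castSucc, by
          show (∑ j : Fin J, ((j : ℕ) + 2) * (f.1 j.castSucc).1.natDegree) = n - (J + 2) * (f.1 (Fin.last J)).1.natDegree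
          have := hb f; omega⟩⟩
    have hgi : Function.Injective g := by
      intro f f' e
      have h1 := congrArg (fun s : Σ d : Fin (n / (J + 2) + 1), SDDeg F d × Tup F J (n - (J + 2) * d) => s.2.1.1) e
      have h2 := congrArg (fun s : Σ d : Fin (n / (J + 2) + 1), SDDeg F d × Tup F J (n - (J + 2) * d) => s.2.2.1) e
      exact Subtype.ext (_root_.funext fun j => Fin.lastCases h1 (fun i => congrFun h2 i) j)
    refine ⟨Finite.of_injective g hgi, (Nat.card_le_card_of_injective g hgi).trans ?_⟩
    rw [Nat.card_sigma, cU, Finset.sum_range]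
    refine Finset.sum_le_sum fun d _ => ?_
    rw [Nat.card_prod]
    exact Nat.mul_le_mul (card_sdDeg hstar hcard hq _).2 (card_tup J _).2

theorem card_tupDet : ∀ J n v, 1 ≤ n → Nat.card (TupDet F J n v) * (q + 1) ≤ n * cU q J n
  | 0, n, v, hn => by
    haveI : IsEmpty (TupDet F 0 n v) := ⟨fun a => by have := a.1.2; simp at this; omega⟩
    simp
  | J + 1, n, v, hn => by
    classical
    haveI := fun m => (card_tup hstar hcard hq J m).1
    haveI := fun m => Fintype.ofFinite (Tup F J m)
    haveI := fun d a => (card_sdConst hstar hcard hq d a).1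
    haveI : ∀ m w, Finite (TupDet F J m w) := fun m w => inferInstanceAs (Finite {f : Tup F J m // tdet f = w})
    haveI : ∀ d, Finite (SDDeg F d) := fun d => (card_sdDeg hstar hcard hq d).1
    set D := n / (J + 2)
    let Fib : Fin (D + 1) → Type _ := fun d => {x : SDDeg F d × Tup F J (n - (J + 2) * d) //
      tdet x.2 * pdet x.1.1.1 ^ (J + 2) = v}
    have hb : ∀ f : Tup F (J + 1) n, (∑ j : Fin J, ((j : ℕ) + 2) * (f.1 j.castSucc).1.natDegree) +
        (J + 2) * (f.1 (Fin.last J)).1.natDegree = n := by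
      intro f
      have h := f.2
      rw [Fin.sum_univ_castSucc] at h
      simpa using h
    let g : TupDet F (J + 1) n v → Σ d, Fib d := fun f =>
      ⟨⟨(f.1.1 (Fin.last J)).1.natDegree, by
          rw [Nat.lt_succ_iff, Nat.le_div_iff_mul_le (by omega), mul_comm]
          have := hb f.1; omega⟩,
        ⟨(⟨f.1.1 (Fin.last J), rfl⟩, ⟨fun j => f.1.1 j.castSucc, by
          show (∑ j : Fin J, ((j : ℕ) + 2) * (f.1.1 j.castSucc).1.natDegree) = n - (J + 2) * (f.1.1 (Fin.last J)).1.natDegree
          have := hb f.1; omega⟩), by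
          refine Eq.trans ?_ f.2
          show _ = ∏ j : Fin (J + 1), _
          rw [Fin.prod_univ_castSucc]
          rfl⟩⟩
    have hgi : Function.Injective g := by
      intro f f' e
      have h1 := congrArg (fun s : Σ d, Fib d => s.2.1.1.1) e
      have h2 := congrArg (fun s : Σ d, Fib d => s.2.1.2.1) e
      exact Subtype.ext (Subtype.ext (_root_.funext fun j => Fin.lastCases h1 (fun i => congrFun h2 i) j))
    refine le_trans (Nat.mul_le_mul_right _ (Nat.card_le_card_of_injective g hgi)) ?_
    rw [Nat.card_sigma, cU, Finset.sum_range, Finset.sum_mul, Finset.mul_sum]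
    refine Finset.sum_le_sum fun d _ => ?_
    rcases Nat.eq_zero_or_pos (d : ℕ) with hd | hd
    · refine le_trans (Nat.mul_le_mul_right _ (?_ : Nat.card (Fib d) ≤ Nat.card (TupDet F J (n - (J + 2) * d) v))) ?_
      · refine Nat.card_le_card_of_injective (fun x => ⟨x.1.2, ?_⟩) fun x y e => ?_
        · have h1 := x.1.1.1.2.1.natDegree_eq_zero.1 (x.1.1.2.trans hd)
          have h := x.2
          rw [h1] at h
          simpa [pdet] using h
        · have h1 := x.1.1.1.2.1.natDegree_eq_zero.1 (x.1.1.2.trans hd)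
          have h2 := y.1.1.1.2.1.natDegree_eq_zero.1 (y.1.1.2.trans hd)
          exact Subtype.ext (Prod.ext (Subtype.ext (Subtype.ext (h1.trans h2.symm))) (congrArg Subtype.val e))
      · rw [show n - (J + 2) * (d : ℕ) = n by rw [hd]; simp, show phi q (d : ℕ) = 1 by rw [hd]; rfl, one_mul]
        exact card_tupDet J n v hn
    · obtain ⟨e, he⟩ : ∃ e, (d : ℕ) = e + 1 := ⟨d - 1, by omega⟩
      have hJn : J + 2 ≤ n := by
        have h1 : 1 ≤ D := by omega
        exact le_trans (le_mul_of_one_le_right (Nat.zero_le _) h1) (Nat.mul_div_le n (J + 2))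
      let T := Σ t : Tup F J (n - (J + 2) * d), Σ a : {a : F // tdet t * ((-1) ^ (d : ℕ) * a) ^ (J + 2) = v},
        SDConst F (e + 1) a.1
      refine le_trans (Nat.mul_le_mul_right _ (?_ : Nat.card (Fib d) ≤ Nat.card T)) ?_
      · refine Nat.card_le_card_of_injective (fun x => ⟨x.1.2, ⟨x.1.1.1.1.coeff 0, ?_⟩,
          ⟨⟨x.1.1.1, x.1.1.2.trans he⟩, rfl⟩⟩) fun x y h => ?_
        · have h := x.2
          rwa [pdet, x.1.1.2] at h
        · have h1 := congrArg (fun s : T => s.1) h
          have h2 := congrArg (fun s : T => s.2.2.1.1) h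
          exact Subtype.ext (Prod.ext (Subtype.ext h2) h1)
      · have hroots : ∀ t : Tup F J (n - (J + 2) * d),
            Nat.card (Σ a : {a : F // tdet t * ((-1) ^ (d : ℕ) * a) ^ (J + 2) = v}, SDConst F (e + 1) a.1)
              ≤ (J + 2) * q ^ e := by
          intro t
          have ht : tdet t ≠ 0 := Finset.prod_ne_zero_iff.2 fun j _ =>
            pow_ne_zero _ (mul_ne_zero (pow_ne_zero _ (neg_ne_zero.2 one_ne_zero)) (t.1 j).2.2.1)
          have hA : Nat.card {a : F // tdet t * ((-1) ^ (d : ℕ) * a) ^ (J + 2) = v} ≤ J + 2 := by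
            refine le_trans (Nat.card_le_card_of_injective
              (fun a => (⟨(-1) ^ (d : ℕ) * a.1, ?_⟩ : {x : F // x ^ (J + 2) = v / tdet t})) fun a b h => ?_)
              (card_pow_eq _ (by omega))
            · rw [eq_div_iff ht, mul_comm, a.2]
            · exact Subtype.ext (mul_left_cancel₀ (pow_ne_zero _ (neg_ne_zero.2 one_ne_zero)) (congrArg Subtype.val h))
          rw [Nat.card_sigma]
          refine (Finset.sum_le_sum fun a _ => (card_sdConst hstar hcard hq e a.1).2).trans ?_
          rw [Finset.sum_const, Finset.card_univ, smul_eq_mul, ← Nat.card_eq_fintype_card]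
          exact Nat.mul_le_mul_right _ hA
        rw [show Nat.card T = _ from Nat.card_sigma]
        refine le_trans (Nat.mul_le_mul_right _ (Finset.sum_le_sum fun t _ => hroots t)) ?_
        rw [Finset.sum_const, Finset.card_univ, smul_eq_mul, ← Nat.card_eq_fintype_card, he, phi]
        calc Nat.card (Tup F J _) * ((J + 2) * q ^ e) * (q + 1)
            = (J + 2) * (((q + 1) * q ^ e) * Nat.card (Tup F J _)) := by ring
          _ ≤ n * (((q + 1) * q ^ e) * cU q J _) :=
              Nat.mul_le_mul hJn (Nat.mul_le_mul_left _ (card_tup hstar hcard hq J _).2)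

/-- Tuples with a part of weight one and determinant one. -/
theorem card_full (n : ℕ) :
    Nat.card (Σ d : Fin n, Σ t : Tup F n (n - ((d : ℕ) + 1)),
      SDConst F ((d : ℕ) + 1) ((-1) ^ ((d : ℕ) + 1) / tdet t)) ≤ ∑ m ∈ Finset.range n, q ^ (n - 1 - m) * cU q n m := by
  classical
  haveI := fun m => (card_tup hstar hcard hq n m).1
  haveI := fun m => Fintype.ofFinite (Tup F n m)
  haveI := fun d a => (card_sdConst hstar hcard hq d a).1
  rw [Nat.card_sigma, ← Finset.sum_range_reflect, Finset.sum_range]
  refine Finset.sum_le_sum fun d _ => ?_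
  rw [Nat.card_sigma]
  refine (Finset.sum_le_sum fun t _ => (card_sdConst hstar hcard hq d _).2).trans ?_
  rw [Finset.sum_const, Finset.card_univ, smul_eq_mul, ← Nat.card_eq_fintype_card, mul_comm,
    show n - 1 - (n - 1 - (d : ℕ)) = d by omega, show n - 1 - (d : ℕ) = n - ((d : ℕ) + 1) by omega]
  exact Nat.mul_le_mul_left _ (card_tup hstar hcard hq n _).2

/-- Tuples without a part of weight one, with a scalar of norm one. -/
theorem card_rest {n : ℕ} (hn : 1 ≤ n) :
    Nat.card (TupDet F n n 1 × NormOne F) ≤ min (q + 1) n * cU q n n := by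
  haveI := (card_tup hstar hcard hq n n).1
  rw [Nat.card_prod]
  refine le_trans (Nat.mul_le_mul_left _ (card_normOne hstar hcard hq)) ?_
  rcases le_total (q + 1) n with h | h
  · rw [min_eq_left h, mul_comm (q + 1)]
    exact Nat.mul_le_mul_right _
      ((Nat.card_le_card_of_injective (α := TupDet F n n 1) Subtype.val Subtype.val_injective).trans
        (card_tup hstar hcard hq n n).2)
  · rw [min_eq_right h]
    exact card_tupDet hstar hcard hq n n 1 hn

end Cfsg.Agent.SUClassCount
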