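import Cfsg.Agent.SUClassCount.Split
import Cfsg.Agent.SUClassCount.Tuples

/-! The number of conjugacy classes of `SU_n(q)` (owner: helper23). -/

set_option autoImplicit false
set_option linter.style.haveILetI false
set_option linter.unusedSectionVars false

namespace Cfsg.Agent.SUClassCount

open Polynomial Module Cfsg.Agent.SemiUnitary
open scoped Matrix

universe u

variable {F : Type u} [Field F] [Fintype F] {n : ℕ}

theorem conj_of_fibres {A B : GL (Fin n) F} (D : Data (A : Matrix (Fin n) (Fin n) F))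
    (D' : Data (B : Matrix (Fin n) (Fin n) F))
    (h : ∀ x : F[X] × ℕ, 1 ≤ x.2 →
      Nat.card {i // (D.P i, D.e i) = x} = Nat.card {k // (D'.P k, D'.e k) = x}) :
    ∃ S : GL (Fin n) F, S * A * S⁻¹ = B := by
  classical
  obtain ⟨Θ⟩ := GLClassCount.pi_equiv_of_fibres D.P D.e D'.P D'.e h
  let toQ := LinearEquiv.piCongrRight fun i => (toAR (D.P i ^ D.e i)).symm
  let ofQ := LinearEquiv.piCongrRight fun k => toAR (D'.P k ^ D'.e k)
  let Ω : D.R ≃ₗ[F] D'.R := (toQ.trans (Θ.restrictScalars F)).trans ofQ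
  have hΩ : ∀ r, Ω ((fun i => AdjoinRoot.root (D.P i ^ D.e i)) * r) =
      (fun k => AdjoinRoot.root (D'.P k ^ D'.e k)) * Ω r := by
    intro r
    have e1 : toQ ((fun i => AdjoinRoot.root (D.P i ^ D.e i)) * r) = (X : F[X]) • toQ r := by
      funext i
      apply (toAR (D.P i ^ D.e i)).injective
      rw [Pi.smul_apply, toAR_smul, AdjoinRoot.mk_X]
      show toAR _ ((toAR _).symm _) = _ * toAR _ ((toAR _).symm _)
      rw [LinearEquiv.apply_symm_apply, LinearEquiv.apply_symm_apply]
      rfl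
    funext k
    simp only [Ω, LinearEquiv.trans_apply, LinearEquiv.restrictScalars_apply, e1, map_smul Θ]
    show toAR _ (((X : F[X]) • Θ (toQ r)) k) = _ * toAR _ (Θ (toQ r) k)
    rw [Pi.smul_apply, toAR_smul, AdjoinRoot.mk_X]
  let L : (Fin n → F) ≃ₗ[F] (Fin n → F) := (D.T.trans Ω).trans D'.T.symm
  have hL : ∀ v, L ((A : Matrix (Fin n) (Fin n) F) *ᵥ v) = (B : Matrix (Fin n) (Fin n) F) *ᵥ L v := by
    intro v
    apply D'.T.injective
    simp only [L, LinearEquiv.trans_apply, D'.hT, LinearEquiv.apply_symm_apply, D.hT, hΩ]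
  let S : GL (Fin n) F :=
    ⟨LinearMap.toMatrix' L.toLinearMap, LinearMap.toMatrix' L.symm.toLinearMap,
      by rw [← LinearMap.toMatrix'_comp]; simp, by rw [← LinearMap.toMatrix'_comp]; simp⟩
  refine ⟨S, mul_inv_eq_iff_eq_mul.2 (Units.ext (Matrix.toLin'.injective ?_))⟩
  rw [Units.val_mul, Units.val_mul, Matrix.toLin'_mul, Matrix.toLin'_mul]
  simp only [S, Matrix.toLin'_toMatrix']
  exact LinearMap.ext hL

variable [StarRing F]

/-- The product of the divisors with exponent `j`. -/
noncomputable def layer {A : Matrix (Fin n) (Fin n) F} (D : Data A) (j : ℕ) : F[X] := by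
  classical exact ∏ i ∈ Finset.univ.filter (fun i => D.e i = j), D.P i

theorem layer_monic {A : Matrix (Fin n) (Fin n) F} (D : Data A) (j : ℕ) : (layer D j).Monic :=
  monic_prod_of_monic _ _ fun i _ => D.monic i

theorem layer_coeff0 {A : Matrix (Fin n) (Fin n) F} (D : Data A) (j : ℕ) : (layer D j).coeff 0 ≠ 0 := by
  rw [layer, coeff_zero_prod, Finset.prod_ne_zero_iff]
  exact fun i _ => D.coeff0 i

theorem pdet_prod {ι : Type*} (s : Finset ι) (f : ι → F[X]) (h : ∀ i ∈ s, (f i).Monic) :
    pdet (∏ i ∈ s, f i) = ∏ i ∈ s, pdet (f i) := by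
  simp only [pdet]
  rw [natDegree_prod_of_monic _ _ h, coeff_zero_prod, ← Finset.prod_pow_eq_pow_sum, Finset.prod_mul_distrib]

theorem rev_prod {ι : Type*} (s : Finset ι) (f : ι → F[X]) :
    rev (∏ i ∈ s, f i) = ∏ i ∈ s, rev (f i) := by
  classical
  induction s using Finset.induction with
  | empty => rw [Finset.prod_empty, Finset.prod_empty, rev, Polynomial.map_one, ← C_1, reverse_C]
  | insert a s ha ih => rw [Finset.prod_insert ha, Finset.prod_insert ha, rev_mul, ih]

theorem layer_selfDual {A : Matrix (Fin n) (Fin n) F} (D : Data A) (hA : star A * A = 1) (j : ℕ) :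
    SelfDual (layer D j) := by
  classical
  obtain ⟨π, hπ, hπk⟩ := exists_perm D hA
  show Associated (rev (layer D j)) (layer D j)
  rw [layer, rev_prod]
  refine (Associated.prod _ _ _ fun i _ => tilde_assoc (D.coeff0 i)).trans (Associated.of_eq ?_)
  refine Finset.prod_equiv π (fun i => ?_) (fun i _ => ((hπk i).1).symm)
  simp [(hπk i).2]

theorem e_le {A : Matrix (Fin n) (Fin n) F} (D : Data A) (i : D.ι) : D.e i ≤ n := by
  have h := Finset.single_le_sum (f := fun i => D.e i * (D.P i).natDegree) (fun _ _ => Nat.zero_le _)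
    (Finset.mem_univ i)
  rw [D.sum] at h
  exact le_trans (Nat.le_mul_of_pos_right _ (D.irr i).natDegree_pos) h

theorem layer_zero {A : Matrix (Fin n) (Fin n) F} (D : Data A) : layer D 0 = 1 := by
  refine Finset.prod_eq_one fun i hi => absurd (Finset.mem_filter.1 hi).2 ?_
  have := D.pos i
  omega

theorem layer_sum {A : Matrix (Fin n) (Fin n) F} (D : Data A) :
    (∑ j : Fin n, ((j : ℕ) + 2) * (layer D ((j : ℕ) + 2)).natDegree) + (layer D 1).natDegree = n := by
  classical
  have h : ∀ j, j * (layer D j).natDegree =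
      ∑ i ∈ Finset.univ.filter (fun i => D.e i = j), D.e i * (D.P i).natDegree := by
    intro j
    rw [layer, natDegree_prod_of_monic _ _ fun i _ => D.monic i, Finset.mul_sum]
    exact Finset.sum_congr rfl fun i hi => by rw [(Finset.mem_filter.1 hi).2]
  have hs := Finset.sum_fiberwise_of_maps_to (s := Finset.univ) (t := Finset.range (n + 2)) (g := D.e)
    (fun i _ => Finset.mem_range.2 (by have := e_le D i; omega)) (fun i => D.e i * (D.P i).natDegree)
  rw [D.sum] at hs
  simp only [← h] at hs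
  rw [Finset.sum_range_succ', Finset.sum_range_succ', zero_mul, add_zero, zero_add, one_mul,
    Finset.sum_range (fun k => (k + 1 + 1) * (layer D (k + 1 + 1)).natDegree)] at hs
  exact hs

theorem layer_det {A : Matrix (Fin n) (Fin n) F} (D : Data A) :
    (∏ j : Fin n, pdet (layer D ((j : ℕ) + 2)) ^ ((j : ℕ) + 2)) * pdet (layer D 1) = A.det := by
  classical
  have h : ∀ j, pdet (layer D j) ^ j =
      ∏ i ∈ Finset.univ.filter (fun i => D.e i = j), pdet (D.P i) ^ D.e i := by
    intro j
    rw [layer, pdet_prod _ _ fun i _ => D.monic i, ← Finset.prod_pow]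
    exact Finset.prod_congr rfl fun i hi => by rw [(Finset.mem_filter.1 hi).2]
  have hs := Finset.prod_fiberwise_of_maps_to (s := Finset.univ) (t := Finset.range (n + 2)) (g := D.e)
    (fun i _ => Finset.mem_range.2 (by have := e_le D i; omega)) (fun i => pdet (D.P i) ^ D.e i)
  simp only [← h] at hs
  rw [Finset.prod_range_succ', Finset.prod_range_succ', pow_zero, mul_one, zero_add, pow_one,
    Finset.prod_range (fun k => pdet (layer D (k + 1 + 1)) ^ (k + 1 + 1))] at hs
  rw [D.det_eq]
  exact hs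

variable {q : ℕ}

/-- The matrix of an element of `SU`. -/
noncomputable abbrev gl (g : ↥(Cfsg.SU n F q)) : GL (Fin n) F :=
  Matrix.SpecialLinearGroup.toGL (g : Matrix.SpecialLinearGroup (Fin n) F)

variable (hstar : ∀ x : F, star x = x ^ q) (hns : ∃ a : F, star a ≠ a)
include hstar

theorem gl_unitary (g : ↥(Cfsg.SU n F q)) :
    star (gl g : Matrix (Fin n) (Fin n) F) * (gl g : Matrix (Fin n) (Fin n) F) = 1 :=
  (star_mul_self_iff hstar g.1).1 g.2

theorem isConj_of_det_one {g h : ↥(Cfsg.SU n F q)} (T : GL (Fin n) F)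
    (hT : star (T : Matrix (Fin n) (Fin n) F) * (T : Matrix (Fin n) (Fin n) F) = 1)
    (hd : (T : Matrix (Fin n) (Fin n) F).det = 1) (hc : T * gl g * T⁻¹ = gl h) : IsConj g h := by
  let U : Matrix.SpecialLinearGroup (Fin n) F := ⟨(T : Matrix (Fin n) (Fin n) F), hd⟩
  have hU : Matrix.SpecialLinearGroup.toGL U = T := Units.ext rfl
  let U' : ↥(Cfsg.SU n F q) := ⟨U, (star_mul_self_iff hstar U).2 hT⟩
  refine isConj_iff.2 ⟨U', Subtype.ext (Matrix.SpecialLinearGroup.toGL_injective ?_)⟩
  show Matrix.SpecialLinearGroup.toGL (U * g.1 * U⁻¹) = _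
  rw [map_mul, map_mul, map_inv, hU]
  exact hc

include hns in
theorem exists_unitary_of_layers {g h : ↥(Cfsg.SU n F q)}
    (D : Data (gl g : Matrix (Fin n) (Fin n) F)) (D' : Data (gl h : Matrix (Fin n) (Fin n) F))
    (hl : ∀ j, 1 ≤ j → j ≤ n + 1 → layer D j = layer D' j) :
    ∃ T : GL (Fin n) F, star (T : Matrix (Fin n) (Fin n) F) * (T : Matrix (Fin n) (Fin n) F) = 1 ∧
      T * gl g * T⁻¹ = gl h := by
  classical
  obtain ⟨S, hS⟩ := conj_of_fibres D D' (by
    rintro ⟨Q, k⟩ hk
    rcases lt_or_ge n k with hn | hn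
    · haveI : IsEmpty {i // (D.P i, D.e i) = (Q, k)} := ⟨fun i => by
        have := e_le D i.1; have := congrArg Prod.snd i.2; simp at this; omega⟩
      haveI : IsEmpty {i // (D'.P i, D'.e i) = (Q, k)} := ⟨fun i => by
        have := e_le D' i.1; have := congrArg Prod.snd i.2; simp at this; omega⟩
      rw [Nat.card_of_isEmpty, Nat.card_of_isEmpty]
    · have hj := hl k hk (by omega)
      rw [layer, layer, Finset.prod_eq_multiset_prod, Finset.prod_eq_multiset_prod] at hj
      have hm := GLClassCount.multiset_eq_of_prod_eq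
        (fun x hx => by obtain ⟨i, -, rfl⟩ := Multiset.mem_map.1 hx; exact ⟨D.irr i, D.monic i⟩)
        (fun x hx => by obtain ⟨i, -, rfl⟩ := Multiset.mem_map.1 hx; exact ⟨D'.irr i, D'.monic i⟩) hj
      have hcnt := congrArg (Multiset.count Q) hm
      rw [Multiset.count_map, Multiset.count_map, ← Finset.filter_val, ← Finset.filter_val,
        ← Finset.card_def, ← Finset.card_def, Finset.filter_filter, Finset.filter_filter] at hcnt
      rw [Nat.card_eq_fintype_card, Nat.card_eq_fintype_card, Fintype.card_subtype, Fintype.card_subtype]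
      refine Eq.trans ?_ (hcnt.trans ?_) <;> congr 1 <;> ext i <;> simp [Prod.ext_iff] <;> tauto)
  exact exists_unitary_conj hns (gl_unitary hstar g) (gl_unitary hstar h) hS

include hns in
theorem upper (hF : Fintype.card F = q ^ 2) (hq : 2 ≤ q) (hn : 1 ≤ n) :
    Nat.card (ConjClasses ↥(Cfsg.SU n F q)) ≤
      ∑ m ∈ Finset.range n, q ^ (n - 1 - m) * cU q n m + min (q + 1) n * cU q n n := by
  classical
  haveI := fun m => (card_tup hstar hF hq n m).1
  haveI := fun d a => (card_sdConst hstar hF hq d a).1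
  haveI : Finite (NormOne F) := inferInstanceAs (Finite {a : F // a * star a = 1})
  haveI : Finite (TupDet F n n 1) := inferInstanceAs (Finite {f : Tup F n n // tdet f = 1})
  let C := ConjClasses ↥(Cfsg.SU n F q)
  let rp : C → ↥(Cfsg.SU n F q) := fun c => c.out
  let D : ∀ c : C, Data (gl (rp c) : Matrix (Fin n) (Fin n) F) := fun c => (exists_data' (gl (rp c))).some
  let sd : C → ℕ → SDPoly F := fun c j =>
    ⟨layer (D c) j, layer_monic _ j, layer_coeff0 _ j, layer_selfDual _ (gl_unitary hstar _) j⟩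
  have hsum : ∀ c, (∑ j : Fin n, ((j : ℕ) + 2) * (sd c ((j : ℕ) + 2)).1.natDegree) +
      (sd c 1).1.natDegree = n := fun c => layer_sum (D c)
  have hdet : ∀ c, (∏ j : Fin n, pdet (sd c ((j : ℕ) + 2)).1 ^ ((j : ℕ) + 2)) * pdet (sd c 1).1 = 1 := fun c =>
    (layer_det (D c)).trans (Matrix.SpecialLinearGroup.det_coe _)
  have hex : ∀ c c', (∀ j, 1 ≤ j → j ≤ n + 1 → layer (D c) j = layer (D c') j) →
      ∃ T : GL (Fin n) F, star (T : Matrix (Fin n) (Fin n) F) * (T : Matrix (Fin n) (Fin n) F) = 1 ∧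
        T * gl (rp c) * T⁻¹ = gl (rp c') := fun c c' h => exists_unitary_of_layers hstar hns (D c) (D c') h
  let ky : C → (Fin (n + 1) → F[X]) := fun c j => layer (D c) ((j : ℕ) + 1)
  have hky : ∀ c c', ky c = ky c' → ∀ j, 1 ≤ j → j ≤ n + 1 → layer (D c) j = layer (D c') j := by
    intro c c' h j h1 h2
    have := congrFun h ⟨j - 1, by omega⟩
    simpa [ky, Nat.sub_add_cancel h1] using this
  let base : C → C := fun c => (⟨c, rfl⟩ : ∃ c', ky c' = ky c).choose
  have hbase : ∀ c, ky (base c) = ky c := fun c => (⟨c, rfl⟩ : ∃ c', ky c' = ky c).choose_spec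
  have hbase_eq : ∀ c c', ky c = ky c' → base c = base c' := by
    intro c c' h
    simp only [base, h]
  choose T hTu hTc using fun c => hex (base c) c (hky _ _ (hbase c))
  let mu : C → NormOne F := fun c => ⟨(T c : Matrix (Fin n) (Fin n) F).det, by
    have h := congrArg Matrix.det (hTu c)
    rwa [Matrix.det_mul, Matrix.star_eq_conjTranspose, Matrix.det_conjTranspose, Matrix.det_one, mul_comm] at h⟩
  let tupOf : ∀ (c : C) (m : ℕ), m + (sd c 1).1.natDegree = n → Tup F n m := fun c m hm =>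
    ⟨fun j => sd c ((j : ℕ) + 2), by
      show (∑ j : Fin n, ((j : ℕ) + 2) * (sd c ((j : ℕ) + 2)).1.natDegree) = m
      have := hsum c; omega⟩
  have htup : ∀ (c : C) (m : ℕ) (hm : m + (sd c 1).1.natDegree = n),
      tdet (tupOf c m hm) * pdet (sd c 1).1 = 1 := fun c m hm => hdet c
  have hconst : ∀ (c : C) (m d : ℕ) (hm : m + (sd c 1).1.natDegree = n), (sd c 1).1.natDegree = d →
      (sd c 1).1.coeff 0 = (-1) ^ d / tdet (tupOf c m hm) := by
    intro c m d hm hd
    have h2 := htup c m hm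
    rw [pdet, hd] at h2
    rw [eq_div_iff (left_ne_zero_of_mul_eq_one h2)]
    have e : ((-1 : F) ^ d) * (-1) ^ d = 1 := by rw [← mul_pow, neg_one_mul, neg_neg, one_pow]
    linear_combination ((-1 : F) ^ d) * h2 - (tdet (tupOf c m hm) * (sd c 1).1.coeff 0) * e
  let Φ : C → (Σ d : Fin n, Σ t : Tup F n (n - ((d : ℕ) + 1)),
      SDConst F ((d : ℕ) + 1) ((-1) ^ ((d : ℕ) + 1) / tdet t)) ⊕ (TupDet F n n 1 × NormOne F) := fun c =>
    if h : (sd c 1).1.natDegree = 0 then
      Sum.inr (⟨tupOf c n (by omega), by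
        have h1 := htup c n (by omega)
        rwa [show pdet (sd c 1).1 = 1 by rw [(sd c 1).2.1.natDegree_eq_zero.1 h]; simp [pdet], mul_one] at h1⟩,
        mu c)
    else
      have hdeg : (sd c 1).1.natDegree - 1 + 1 = (sd c 1).1.natDegree := by omega
      have hle : (sd c 1).1.natDegree ≤ n := by have := hsum c; omega
      have hm : n - ((sd c 1).1.natDegree - 1 + 1) + (sd c 1).1.natDegree = n := by omega
      Sum.inl ⟨⟨(sd c 1).1.natDegree - 1, by omega⟩, tupOf c _ hm,
        ⟨⟨sd c 1, hdeg.symm⟩, hconst c _ _ hm hdeg.symm⟩⟩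
  have hrec : ∀ c c', Φ c = Φ c' → ky c = ky c' ∧
      ((sd c 1).1.natDegree = 0 → mu c = mu c') := by
    intro c c' h
    have fin : (∀ j : Fin n, sd c ((j : ℕ) + 2) = sd c' ((j : ℕ) + 2)) → sd c 1 = sd c' 1 → ky c = ky c' := by
      intro h2 h1
      funext j
      rcases j with ⟨_ | j, hj⟩
      · exact congrArg Subtype.val h1
      · exact congrArg Subtype.val (h2 ⟨j, by omega⟩)
    by_cases h0 : (sd c 1).1.natDegree = 0 <;> by_cases h0' : (sd c' 1).1.natDegree = 0
    · simp only [Φ, dif_pos h0, dif_pos h0', Sum.inr.injEq] at h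
      refine ⟨fin (fun j => congrFun (congrArg (fun t : TupDet F n n 1 => t.1.1) (congrArg Prod.fst h)) j) (Subtype.ext
        (((sd c 1).2.1.natDegree_eq_zero.1 h0).trans ((sd c' 1).2.1.natDegree_eq_zero.1 h0').symm)), fun _ => congrArg Prod.snd h⟩
    · simp only [Φ, dif_pos h0, dif_neg h0', reduceCtorEq] at h
    · simp only [Φ, dif_neg h0, dif_pos h0', reduceCtorEq] at h
    · simp only [Φ, dif_neg h0, dif_neg h0', Sum.inl.injEq] at h
      have e1 := congrArg (fun s : Σ d : Fin n, Σ t : Tup F n (n - ((d : ℕ) + 1)),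
        SDConst F ((d : ℕ) + 1) ((-1) ^ ((d : ℕ) + 1) / tdet t) => s.2.1.1) h
      have e2 := congrArg (fun s : Σ d : Fin n, Σ t : Tup F n (n - ((d : ℕ) + 1)),
        SDConst F ((d : ℕ) + 1) ((-1) ^ ((d : ℕ) + 1) / tdet t) => s.2.2.1.1) h
      exact ⟨fin (fun j => congrFun e1 j) e2, fun hh => absurd hh h0⟩
  have hinj : Function.Injective Φ := by
    intro c c' h
    obtain ⟨hk, hm⟩ := hrec c c' h
    suffices hc : IsConj (rp c) (rp c') from
      (Quotient.out_eq c).symm.trans ((ConjClasses.mk_eq_mk_iff_isConj.2 hc).trans (Quotient.out_eq c'))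
    by_cases h0 : (sd c 1).1.natDegree = 0
    · have hμ : (T c : Matrix (Fin n) (Fin n) F).det = (T c' : Matrix (Fin n) (Fin n) F).det :=
        congrArg Subtype.val (hm h0)
      have hTc' := hTc c
      rw [hbase_eq c c' hk] at hTc'
      refine isConj_of_det_one hstar (T c' * (T c)⁻¹) ?_ ?_ ?_
      · have uni : ∀ V : GL (Fin n) F, star (V : Matrix (Fin n) (Fin n) F) * V = 1 ↔ star V * V = 1 := fun V =>
          ⟨fun h => Units.ext h, fun h => congrArg Units.val h⟩
        have u1 := (uni _).1 (hTu c)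
        have u2 := (uni _).1 (hTu c')
        rw [uni]
        have e1 : star (T c) = (T c)⁻¹ := eq_inv_of_mul_eq_one_left u1
        have e2 : star (T c') = (T c')⁻¹ := eq_inv_of_mul_eq_one_left u2
        rw [star_mul, star_inv, e1, e2]
        group
      · rw [Units.val_mul, Matrix.det_mul, ← hμ, ← Matrix.det_mul, Units.mul_inv, Matrix.det_one]
      · rw [← hTc c', ← hTc']
        group
    · obtain ⟨i₀, -, hi₀⟩ : ∃ i ∈ (Finset.univ : Finset (D c).ι), (D c).e i = 1 := by
        by_contra hno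
        push Not at hno
        refine h0 ?_
        show (layer (D c) 1).natDegree = 0
        rw [layer, Finset.filter_false_of_mem hno, Finset.prod_empty, natDegree_one]
      obtain ⟨S, hSu, hSc⟩ := hex c c' (hky _ _ hk)
      have hSd : (S : Matrix (Fin n) (Fin n) F).det * star (S : Matrix (Fin n) (Fin n) F).det = 1 := by
        have h := congrArg Matrix.det hSu
        rwa [Matrix.det_mul, Matrix.star_eq_conjTranspose, Matrix.det_conjTranspose, Matrix.det_one, mul_comm] at h
      obtain ⟨u, huu, huc, hud⟩ := exists_centralizer hns (gl_unitary hstar (rp c)) (D c) i₀ hi₀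
        (d := (S : Matrix (Fin n) (Fin n) F).det⁻¹) (by rw [star_inv₀, ← mul_inv, hSd, inv_one])
      refine isConj_of_det_one hstar (S * u) ?_ ?_ ?_
      · rw [Units.val_mul, star_mul, mul_assoc, ← mul_assoc (star (S : Matrix (Fin n) (Fin n) F)), hSu, one_mul, huu]
      · rw [Units.val_mul, Matrix.det_mul, hud, mul_inv_cancel₀ (left_ne_zero_of_mul_eq_one hSd)]
      · rw [← hSc]
        calc S * u * gl (rp c) * (S * u)⁻¹ = S * (u * gl (rp c) * u⁻¹) * S⁻¹ := by group
          _ = _ := by rw [huc, mul_inv_cancel_right]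
  refine (Nat.card_le_card_of_injective Φ hinj).trans ?_
  rw [Nat.card_sum]
  exact Nat.add_le_add (card_full hstar hF hq n) (card_rest hstar hF hq hn)

omit hstar [StarRing F] in
theorem main (hF : Fintype.card F = q ^ 2) (hn : 2 ≤ n) :
    q ^ (n - 1) ≤ Nat.card (ConjClasses ↥(Cfsg.SU n F q)) ∧
      100 * Nat.card (ConjClasses ↥(Cfsg.SU n F q)) ≤ 826 * q ^ (n - 1) := by
  obtain ⟨p, hp⟩ := CharP.exists F
  haveI : Fact p.Prime := ⟨CharP.char_is_prime F p⟩
  have hq : 2 ≤ q := by
    have := (Classical.U.sqField_of_fintype hF).one_lt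
    omega
  refine ⟨?_, ?_⟩
  · rw [← card_su hF p (show 1 ≤ n by omega)]
    exact Nat.card_le_card_of_injective _ Subtype.val_injective
  · letI : StarRing F := starPow hF
    exact (Nat.mul_le_mul_left _ (upper (fun _ => rfl) (exists_pow_ne hF) hF hq (by omega))).trans (final_bound hq hn)

end Cfsg.Agent.SUClassCount
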