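import Mathlib

/-! The recursion bounding the number of classes of `SU_n(q)` (owner: helper23). -/

set_option autoImplicit false

namespace Cfsg.Agent.SUClassCount

open Finset

/-- Bound for the number of self-dual monic polynomials of degree `d`. -/
def phi (q : ℕ) : ℕ → ℕ
  | 0 => 1
  | d + 1 => (q + 1) * q ^ d

/-- Tuples of self-dual polynomials with weights `2, …, J + 1`. -/
def cU (q : ℕ) : ℕ → ℕ → ℕ
  | 0, n => if n = 0 then 1 else 0
  | J + 1, n => ∑ d ∈ range (n / (J + 2) + 1), phi q d * cU q J (n - (J + 2) * d)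

theorem cU_zero (q : ℕ) : ∀ J, cU q J 0 = 1
  | 0 => by simp [cU]
  | J + 1 => by simp [cU, phi, cU_zero q J]

theorem cU_stab (q : ℕ) {J n : ℕ} (h : n < J + 2) : cU q (J + 1) n = cU q J n := by
  simp [cU, Nat.div_eq_of_lt h, phi]

theorem cU_eq (q : ℕ) : ∀ {J n : ℕ}, n ≤ J → cU q J n = cU q n n := by
  intro J n h
  induction J with
  | zero => rw [Nat.le_zero.1 h]
  | succ J ih =>
    rcases Nat.lt_or_eq_of_le h with h' | h'
    · rw [cU_stab q (by omega), ih (by omega)]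
    · rw [h']

theorem phi_mono {q : ℕ} (hq : 3 ≤ q) (j d : ℕ) (hj : 2 ≤ j) (hd : 1 ≤ d) :
    phi q d * q * 3 ^ (j * d) ≤ phi 3 d * 3 * q ^ (j * d) := by
  obtain ⟨e, rfl⟩ : ∃ e, d = e + 1 := ⟨d - 1, by omega⟩
  obtain ⟨r, hr⟩ : ∃ r, j * (e + 1) = e + 1 + (r + 1) := ⟨j * (e + 1) - (e + 2), by
    have : 2 * (e + 1) ≤ j * (e + 1) := Nat.mul_le_mul_right _ hj
    omega⟩
  rw [phi, phi, hr]
  calc (q + 1) * q ^ e * q * 3 ^ (e + 1 + (r + 1)) = ((q + 1) * 3) * 3 ^ r * (q ^ (e + 1) * 3 ^ (e + 1)) := by ring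
    _ ≤ ((3 + 1) * q) * q ^ r * (q ^ (e + 1) * 3 ^ (e + 1)) :=
        Nat.mul_le_mul_right _ (Nat.mul_le_mul (by omega) (Nat.pow_le_pow_left hq r))
    _ = (3 + 1) * 3 ^ e * 3 * q ^ (e + 1 + (r + 1)) := by ring

theorem cU_mono {q : ℕ} (hq : 3 ≤ q) : ∀ J m,
    cU q J m * 3 ^ m ≤ cU 3 J m * q ^ m ∧ (1 ≤ m → cU q J m * q * 3 ^ m ≤ cU 3 J m * 3 * q ^ m)
  | 0, m => by
    constructor
    · by_cases h : m = 0 <;> simp [cU, h]
    · intro h
      simp [cU, show m ≠ 0 by omega]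
  | J + 1, m => by
    have hs : 1 ≤ m → cU q (J + 1) m * q * 3 ^ m ≤ cU 3 (J + 1) m * 3 * q ^ m := by
      intro hm
      simp only [cU, Finset.sum_mul]
      refine Finset.sum_le_sum fun d hd => ?_
      rcases Nat.eq_zero_or_pos d with rfl | hd0
      · simpa [phi] using (cU_mono hq J m).2 hm
      · have hle : (J + 2) * d ≤ m := by
          have := Finset.mem_range.1 hd
          exact le_trans (Nat.mul_le_mul_left _ (by omega)) (Nat.mul_div_le m (J + 2))
        obtain ⟨r, rfl⟩ := Nat.exists_eq_add_of_le hle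
        rw [Nat.add_sub_cancel_left, pow_add, pow_add]
        calc _ = (phi q d * q * 3 ^ ((J + 2) * d)) * (cU q J r * 3 ^ r) := by ring
          _ ≤ (phi 3 d * 3 * q ^ ((J + 2) * d)) * (cU 3 J r * q ^ r) :=
              Nat.mul_le_mul (phi_mono hq _ d (by omega) hd0) (cU_mono hq J r).1
          _ = _ := by ring
    refine ⟨?_, hs⟩
    rcases Nat.eq_zero_or_pos m with rfl | hm
    · simp [cU_zero]
    · refine Nat.le_of_mul_le_mul_left ?_ (show 0 < 3 by omega)
      calc 3 * (cU q (J + 1) m * 3 ^ m) ≤ q * (cU q (J + 1) m * 3 ^ m) := Nat.mul_le_mul_right _ hq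
        _ = cU q (J + 1) m * q * 3 ^ m := by ring
        _ ≤ cU 3 (J + 1) m * 3 * q ^ m := hs hm
        _ = _ := by ring

theorem geom_le {q : ℕ} {y : ℚ} (hy : 0 ≤ y) (h : (q : ℚ) * y < 1) (D : ℕ) :
    ∑ d ∈ range (D + 1), (phi q d : ℚ) * y ^ d ≤ (1 + y) / (1 - q * y) := by
  rw [le_div_iff₀ (by linarith), Finset.sum_range_succ']
  have e : ∑ d ∈ range D, (phi q (d + 1) : ℚ) * y ^ (d + 1) = (q + 1) * y * ∑ d ∈ range D, ((q : ℚ) * y) ^ d := by
    rw [Finset.mul_sum]
    refine Finset.sum_congr rfl fun d _ => ?_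
    simp only [phi]
    push_cast
    ring
  rw [e]
  simp only [phi, Nat.cast_one, pow_zero, mul_one]
  have g := geom_sum_mul_neg ((q : ℚ) * y) D
  have hz : (0 : ℚ) ≤ ((q : ℚ) * y) ^ D := by positivity
  have hqy : (0 : ℚ) ≤ (q + 1) * y := by positivity
  calc ((q + 1) * y * ∑ d ∈ range D, ((q : ℚ) * y) ^ d + 1) * (1 - q * y)
      = (q + 1) * y * ((∑ d ∈ range D, ((q : ℚ) * y) ^ d) * (1 - q * y)) + (1 - q * y) := by ring
    _ = (q + 1) * y * (1 - ((q : ℚ) * y) ^ D) + (1 - q * y) := by rw [g]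
    _ ≤ (q + 1) * y * 1 + (1 - q * y) :=
        add_le_add (mul_le_mul_of_nonneg_left (by linarith) hqy) le_rfl
    _ = 1 + y := by ring

/-- The truncated Euler product. -/
def eul (q : ℕ) (s : ℚ) (J : ℕ) : ℚ := ∏ i ∈ range J, (1 + s ^ (i + 2)) / (1 - q * s ^ (i + 2))

theorem weighted_le {q : ℕ} {s : ℚ} (hs : 0 ≤ s) (h : ∀ j, 2 ≤ j → (q : ℚ) * s ^ j < 1) :
    ∀ J N, ∑ m ∈ range (N + 1), (cU q J m : ℚ) * s ^ m ≤ eul q s J
  | 0, N => by
    rw [Finset.sum_eq_single 0 (fun m _ hm => by simp [cU, hm]) (by simp)]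
    simp [cU, eul]
  | J + 1, N => by
    have hj := h (J + 2) (by omega)
    have hex : eul q s (J + 1) = eul q s J * ((1 + s ^ (J + 2)) / (1 - q * s ^ (J + 2))) :=
      Finset.prod_range_succ _ _
    have hnn : 0 ≤ eul q s J := Finset.prod_nonneg fun i _ =>
      div_nonneg (by positivity) (by have := h (i + 2) (by omega); linarith)
    rw [hex, mul_comm]
    refine le_trans ?_ (mul_le_mul (geom_le (pow_nonneg hs _) hj N) (weighted_le hs h J N)
      (Finset.sum_nonneg fun m _ => by positivity) (div_nonneg (by positivity) (by linarith)))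
    rw [Finset.sum_mul_sum, ← Finset.sum_product']
    simp only [cU, Nat.cast_sum, Finset.sum_mul, Nat.cast_mul]
    rw [Finset.sum_sigma']
    refine le_trans (le_of_eq ?_) (Finset.sum_le_sum_of_subset_of_nonneg
      (s := (((range (N + 1)).sigma fun m => range (m / (J + 2) + 1)).image
        fun x => (x.2, x.1 - (J + 2) * x.2))) ?_ fun x _ _ => by positivity)
    · rw [Finset.sum_image]
      · refine Finset.sum_congr rfl fun x hx => ?_
        obtain ⟨m, d⟩ := x
        simp only [Finset.mem_sigma, Finset.mem_range] at hx ⊢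
        have hle : (J + 2) * d ≤ m :=
          le_trans (Nat.mul_le_mul_left _ (by omega)) (Nat.mul_div_le m (J + 2))
        conv_lhs => rw [← Nat.add_sub_of_le hle, pow_add, pow_mul]
        simp only [Nat.add_sub_of_le hle]
        ring
      · rintro ⟨m, d⟩ hx ⟨m', d'⟩ hx' e
        simp only [Finset.mem_coe, Finset.mem_sigma, Finset.mem_range] at hx hx'
        simp only [Prod.mk.injEq] at e
        obtain ⟨rfl, e⟩ := e
        have h1 : (J + 2) * d ≤ m := le_trans (Nat.mul_le_mul_left _ (by omega)) (Nat.mul_div_le m (J + 2))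
        have h2 : (J + 2) * d ≤ m' := le_trans (Nat.mul_le_mul_left _ (by omega)) (Nat.mul_div_le m' (J + 2))
        obtain rfl : m = m' := by omega
        rfl
    · intro x hx
      simp only [Finset.mem_image, Finset.mem_sigma, Finset.mem_range] at hx
      obtain ⟨⟨m, d⟩, ⟨hm, hd⟩, rfl⟩ := hx
      dsimp only at hm hd
      simp only [Finset.mem_product, Finset.mem_range]
      have h2 := Nat.div_le_self m (J + 2)
      exact ⟨by omega, by omega⟩

theorem eul_le {q : ℕ} {s B K C : ℚ} (J₀ : ℕ) (hs : 0 ≤ s) (hs1 : s ≤ 1) (hK : 0 ≤ K) (hC : 0 ≤ C)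
    (h : ∀ j, 2 ≤ j → (q : ℚ) * s ^ j < 1) (hy : (q : ℚ) + 1 ≤ K * (1 - q * s ^ (J₀ + 2)))
    (hstep : K + C * s + K * C * s ^ (J₀ + 3) ≤ C) (hB : eul q s J₀ * (1 + C * s ^ (J₀ + 2)) ≤ B) (J : ℕ) :
    eul q s J ≤ B := by
  have hf : ∀ j, 2 ≤ j → 0 ≤ (1 + s ^ j) / (1 - (q : ℚ) * s ^ j) ∧ 1 ≤ (1 + s ^ j) / (1 - (q : ℚ) * s ^ j) := by
    intro j hj
    have := h j hj
    have hp : 0 ≤ s ^ j := pow_nonneg hs _
    have hq0 : 0 ≤ (q : ℚ) * s ^ j := by positivity
    refine ⟨div_nonneg (by linarith) (by linarith), ?_⟩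
    rw [le_div_iff₀ (by linarith)]
    linarith
  have hnn : ∀ J, 0 ≤ eul q s J := fun J => Finset.prod_nonneg fun i _ => (hf _ (by omega)).1
  have hmono : ∀ k, eul q s J₀ ≤ eul q s (J₀ + k) ∧ eul q s (J₀ + k) * (1 + C * s ^ (J₀ + k + 2)) ≤ B := by
    intro k
    induction k with
    | zero => exact ⟨le_rfl, hB⟩
    | succ k ih =>
      set j := J₀ + k + 2 with hjd
      have he : eul q s (J₀ + (k + 1)) = eul q s (J₀ + k) * ((1 + s ^ j) / (1 - q * s ^ j)) :=
        Finset.prod_range_succ _ _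
      refine ⟨ih.1.trans (by rw [he]; exact le_mul_of_one_le_right (hnn _) (hf j (by omega)).2), ?_⟩
      rw [he, show J₀ + (k + 1) + 2 = j + 1 by omega, mul_assoc]
      refine le_trans (mul_le_mul_of_nonneg_left ?_ (hnn _)) ih.2
      have hp : 0 ≤ s ^ j := pow_nonneg hs _
      have hpy : s ^ j ≤ s ^ (J₀ + 2) := pow_le_pow_of_le_one hs hs1 (by omega)
      have hpz : s ^ (j + 1) ≤ s ^ (J₀ + 3) := pow_le_pow_of_le_one hs hs1 (by omega)
      have hq0 : (q : ℚ) * s ^ j ≤ q * s ^ (J₀ + 2) := mul_le_mul_of_nonneg_left hpy (by positivity)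
      have h1 : (q : ℚ) + 1 ≤ K * (1 - q * s ^ j) :=
        hy.trans (mul_le_mul_of_nonneg_left (by linarith) hK)
      have h2 : (1 + s ^ j) / (1 - (q : ℚ) * s ^ j) ≤ 1 + K * s ^ j := by
        rw [div_le_iff₀ (by have := h j (by omega); linarith)]
        nlinarith [mul_le_mul_of_nonneg_left h1 hp]
      refine le_trans (mul_le_mul_of_nonneg_right h2 (by positivity)) ?_
      have h3 : K * C * s ^ (j + 1) ≤ K * C * s ^ (J₀ + 3) :=
        mul_le_mul_of_nonneg_left hpz (by positivity)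
      have h4 : s ^ j * (K + C * s + K * C * s ^ (j + 1)) ≤ s ^ j * C :=
        mul_le_mul_of_nonneg_left (by linarith) hp
      calc (1 + K * s ^ j) * (1 + C * s ^ (j + 1)) = 1 + s ^ j * (K + C * s + K * C * s ^ (j + 1)) := by ring
        _ ≤ 1 + C * s ^ j := by linarith
  rcases le_total J₀ J with hJ | hJ
  · obtain ⟨k, rfl⟩ := Nat.exists_eq_add_of_le hJ
    refine le_trans ?_ (hmono k).2
    exact le_mul_of_one_le_right (hnn _) (le_add_of_nonneg_right (by positivity))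
  · refine le_trans ?_ hB
    refine le_trans ?_ (le_mul_of_one_le_right (hnn _) (le_add_of_nonneg_right (by positivity)))
    exact monotone_nat_of_le_succ (f := eul q s) (fun k => by
      rw [show eul q s (k + 1) = eul q s k * _ from Finset.prod_range_succ _ _]
      exact le_mul_of_one_le_right (hnn _) (hf _ (by omega)).2) hJ

theorem lt_one_of {q : ℕ} {s : ℚ} (hs : 0 ≤ s) (hs1 : s ≤ 1) (h : (q : ℚ) * s ^ 2 < 1) (j : ℕ) (hj : 2 ≤ j) :
    (q : ℚ) * s ^ j < 1 :=
  lt_of_le_of_lt (mul_le_mul_of_nonneg_left (pow_le_pow_of_le_one hs hs1 hj) (by positivity)) h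

theorem scaled_le {q : ℕ} (hq : 0 < q) {B : ℚ} {n : ℕ}
    (h : ∑ m ∈ range (n + 1), (cU q n m : ℚ) * ((q : ℚ)⁻¹) ^ m ≤ B) :
    (∑ m ∈ range n, (cU q n m : ℚ) * (q : ℚ) ^ (n - m)) + cU q n n ≤ B * (q : ℚ) ^ n := by
  have hq0 : (q : ℚ) ≠ 0 := by exact_mod_cast hq.ne'
  refine le_trans (le_of_eq ?_) (mul_le_mul_of_nonneg_right h (by positivity))
  rw [Finset.sum_mul, Finset.sum_range_succ]
  refine congrArg₂ _ (Finset.sum_congr rfl fun m hm => ?_) ?_
  · have hm' : m ≤ n := (Finset.mem_range.1 hm).le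
    rw [pow_sub₀ _ hq0 hm', inv_pow]
    ring
  · rw [mul_assoc, ← mul_pow, inv_mul_cancel₀ hq0, one_pow, mul_one]

theorem small_two : ∀ n ∈ List.range 22, 2 ≤ n →
    100 * (∑ m ∈ range n, cU 2 n m * 2 ^ (n - m) + 6 * cU 2 n n) ≤ 826 * 2 ^ n := by decide +kernel

theorem small_three : ∀ n ∈ List.range 14, 2 ≤ n →
    100 * (∑ m ∈ range n, cU 3 n m * 3 ^ (n - m) + 3 * n * cU 3 n n) ≤ 826 * 3 ^ n := by decide +kernel

theorem bound_two {n : ℕ} (hn : 2 ≤ n) :
    100 * (∑ m ∈ range n, cU 2 n m * 2 ^ (n - m) + 6 * cU 2 n n) ≤ 826 * 2 ^ n := by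
  rcases Nat.lt_or_ge n 22 with h | h
  · exact small_two n (List.mem_range.2 h) hn
  have h1 := scaled_le (q := 2) (by norm_num) (n := n)
    ((weighted_le (q := 2) (s := (((2 : ℕ) : ℚ))⁻¹) (by norm_num) (lt_one_of (by norm_num) (by norm_num) (by norm_num)) n n).trans
      (eul_le (B := 552 / 100) (K := 4) (C := 10) 12 (by norm_num) (by norm_num) (by norm_num) (by norm_num)
        (lt_one_of (by norm_num) (by norm_num) (by norm_num)) (by norm_num) (by norm_num)
        (by norm_num [eul, Finset.prod_range_succ]) n))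
  have h2 : (cU 2 n n : ℚ) * (3 / 5 : ℚ) ^ n ≤ 29 :=
    ((Finset.single_le_sum (f := fun m => (cU 2 n m : ℚ) * (3 / 5 : ℚ) ^ m) (fun m _ => by positivity)
      (Finset.self_mem_range_succ n)).trans
      (weighted_le (q := 2) (by norm_num) (lt_one_of (by norm_num) (by norm_num) (by norm_num)) n n)).trans
      (eul_le (B := 29) (K := 33 / 10) (C := 85 / 10) 14 (by norm_num) (by norm_num) (by norm_num) (by norm_num)
        (lt_one_of (by norm_num) (by norm_num) (by norm_num)) (by norm_num) (by norm_num)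
        (by norm_num [eul, Finset.prod_range_succ]) n)
  have h3 : (6 / 5 : ℚ) ^ 22 ≤ (6 / 5 : ℚ) ^ n := pow_le_pow_right₀ (by norm_num) h
  have h4 : (cU 2 n n : ℚ) * (6 / 5 : ℚ) ^ 22 ≤ 29 * (2 : ℚ) ^ n := by
    refine (mul_le_mul_of_nonneg_left h3 (by positivity)).trans ?_
    rw [show (6 / 5 : ℚ) = 3 / 5 * 2 by norm_num, mul_pow, ← mul_assoc]
    exact mul_le_mul_of_nonneg_right h2 (by positivity)
  have key : (100 : ℚ) * ((∑ m ∈ range n, (cU 2 n m : ℚ) * (2 : ℚ) ^ (n - m)) + 6 * cU 2 n n) ≤ 826 * (2 : ℚ) ^ n := by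
    have hp : (0 : ℚ) < (2 : ℚ) ^ n := by positivity
    norm_num at h1 h4 ⊢
    nlinarith
  exact_mod_cast key

theorem bound_three {n : ℕ} (hn : 2 ≤ n) :
    100 * (∑ m ∈ range n, cU 3 n m * 3 ^ (n - m) + 3 * n * cU 3 n n) ≤ 826 * 3 ^ n := by
  rcases Nat.lt_or_ge n 14 with h | h
  · exact small_three n (List.mem_range.2 h) hn
  have h1 := scaled_le (q := 3) (by norm_num) (n := n)
    ((weighted_le (q := 3) (s := (((3 : ℕ) : ℚ))⁻¹) (by norm_num) (lt_one_of (by norm_num) (by norm_num) (by norm_num)) n n).trans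
      (eul_le (B := 211 / 100) (K := 5) (C := 9) 8 (by norm_num) (by norm_num) (by norm_num) (by norm_num)
        (lt_one_of (by norm_num) (by norm_num) (by norm_num)) (by norm_num) (by norm_num)
        (by norm_num [eul, Finset.prod_range_succ]) n))
  have h2 : (cU 3 n n : ℚ) * (9 / 20 : ℚ) ^ n ≤ 64 / 10 :=
    ((Finset.single_le_sum (f := fun m => (cU 3 n m : ℚ) * (9 / 20 : ℚ) ^ m) (fun m _ => by positivity)
      (Finset.self_mem_range_succ n)).trans
      (weighted_le (q := 3) (by norm_num) (lt_one_of (by norm_num) (by norm_num) (by norm_num)) n n)).trans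
      (eul_le (B := 64 / 10) (K := 45 / 10) (C := 9) 10 (by norm_num) (by norm_num) (by norm_num) (by norm_num)
        (lt_one_of (by norm_num) (by norm_num) (by norm_num)) (by norm_num) (by norm_num)
        (by norm_num [eul, Finset.prod_range_succ]) n)
  have hall : ∀ k : ℕ, 14 ≤ k → (k : ℚ) * (27 / 20) ^ 14 ≤ 14 * (27 / 20 : ℚ) ^ k := by
    intro k hk
    induction k, hk using Nat.le_induction with
    | base => norm_num
    | succ k hk ih =>
      rw [pow_succ _ k, ← mul_assoc (14 : ℚ)]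
      refine le_trans ?_ (mul_le_mul_of_nonneg_right ih (by norm_num))
      have hk' : (14 : ℚ) ≤ k := by exact_mod_cast hk
      rw [Nat.cast_succ, mul_right_comm]
      exact mul_le_mul_of_nonneg_right (by linarith) (by positivity)
  have h3 := hall n h
  have h4 : (cU 3 n n : ℚ) * n * (27 / 20 : ℚ) ^ 14 ≤ 14 * (64 / 10) * (3 : ℚ) ^ n := by
    rw [mul_assoc]
    refine (mul_le_mul_of_nonneg_left h3 (by positivity)).trans ?_
    rw [show (27 / 20 : ℚ) = 9 / 20 * 3 by norm_num, mul_pow]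
    calc (cU 3 n n : ℚ) * (14 * ((9 / 20) ^ n * 3 ^ n)) = 14 * ((cU 3 n n : ℚ) * (9 / 20) ^ n) * 3 ^ n := by ring
      _ ≤ _ := mul_le_mul_of_nonneg_right (mul_le_mul_of_nonneg_left h2 (by norm_num)) (by positivity)
  have key : (100 : ℚ) * ((∑ m ∈ range n, (cU 3 n m : ℚ) * (3 : ℚ) ^ (n - m)) + 3 * n * cU 3 n n) ≤ 826 * (3 : ℚ) ^ n := by
    have hp : (0 : ℚ) < (3 : ℚ) ^ n := by positivity
    have hc : (0 : ℚ) ≤ cU 3 n n := by positivity
    norm_num at h1 h4 ⊢
    nlinarith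
  exact_mod_cast key

theorem final_bound {q n : ℕ} (hq : 2 ≤ q) (hn : 2 ≤ n) :
    100 * (∑ m ∈ range n, q ^ (n - 1 - m) * cU q n m + min (q + 1) n * cU q n n) ≤ 826 * q ^ (n - 1) := by
  have hqn : q * q ^ (n - 1) = q ^ n := by rw [← pow_succ', Nat.sub_add_cancel (by omega : 1 ≤ n)]
  have hS : ∀ q, q * ∑ m ∈ range n, q ^ (n - 1 - m) * cU q n m = ∑ m ∈ range n, cU q n m * q ^ (n - m) := by
    intro q
    rw [Finset.mul_sum]
    refine Finset.sum_congr rfl fun m hm => ?_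
    have := Finset.mem_range.1 hm
    rw [← mul_assoc, ← pow_succ', show n - 1 - m + 1 = n - m by omega, mul_comm]
  refine Nat.le_of_mul_le_mul_left ?_ (show 0 < q by omega)
  rw [show q * (826 * q ^ (n - 1)) = 826 * q ^ n by rw [← hqn]; ring]
  rcases Nat.lt_or_ge q 3 with h | h
  · obtain rfl : q = 2 := by omega
    refine le_trans ?_ (bound_two hn)
    rw [← hS]
    have : min (2 + 1) n ≤ 3 := min_le_left _ _
    nlinarith
  · refine Nat.le_of_mul_le_mul_right ?_ (show 0 < 3 ^ n by positivity)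
    calc q * (100 * (∑ m ∈ range n, q ^ (n - 1 - m) * cU q n m + min (q + 1) n * cU q n n)) * 3 ^ n
        = 100 * ((q * ∑ m ∈ range n, q ^ (n - 1 - m) * cU q n m) * 3 ^ n + min (q + 1) n * (cU q n n * q * 3 ^ n)) := by ring
      _ ≤ 100 * ((∑ m ∈ range n, cU 3 n m * 3 ^ (n - m)) * q ^ n + n * (cU 3 n n * 3 * q ^ n)) := by
          refine Nat.mul_le_mul_left _ (Nat.add_le_add ?_ (Nat.mul_le_mul (min_le_right _ _) ((cU_mono h n n).2 (by omega))))
          rw [hS, Finset.sum_mul, Finset.sum_mul]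
          refine Finset.sum_le_sum fun m hm => ?_
          have hm' : m ≤ n := (Finset.mem_range.1 hm).le
          obtain ⟨r, hr⟩ := Nat.exists_eq_add_of_le hm'
          rw [show n - m = r by omega]
          calc cU q n m * q ^ r * 3 ^ n = (cU q n m * 3 ^ m) * (q ^ r * 3 ^ r) := by rw [hr, pow_add]; ring
            _ ≤ (cU 3 n m * q ^ m) * (q ^ r * 3 ^ r) := Nat.mul_le_mul_right _ (cU_mono h n m).1
            _ = _ := by rw [hr, pow_add]; ring
      _ = (100 * (∑ m ∈ range n, cU 3 n m * 3 ^ (n - m) + 3 * n * cU 3 n n)) * q ^ n := by ring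
      _ ≤ (826 * 3 ^ n) * q ^ n := Nat.mul_le_mul_right _ (bound_three hn)
      _ = _ := by ring

end Cfsg.Agent.SUClassCount
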