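import Cfsg.Agent.SUClassCount.Model
import Cfsg.Agent.OrderBound.SelfDual
import Cfsg.Agent.SemiUnitary.Classes

/-! The elementary divisors of a unitary matrix are self-dual (owner: helper23). -/

set_option autoImplicit false
set_option linter.style.haveILetI false
set_option linter.unusedSectionVars false

namespace Cfsg.Agent.SUClassCount

open Polynomial Cfsg.Agent.SemiUnitary
open scoped Matrix

universe u

variable {F : Type u} [Field F] [Fintype F] [StarRing F] {n : ℕ}

local notation "M" => Matrix (Fin n) (Fin n) F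

/-- The monic conjugate-reciprocal. -/
noncomputable def tilde (f : F[X]) : F[X] := f.reverse.map (starRingEnd F) * C (star (f.coeff 0))⁻¹

theorem tilde_assoc {f : F[X]} (h : f.coeff 0 ≠ 0) : Associated (rev f) (tilde f) := by
  rw [tilde, reverse_map_star]
  exact ⟨(isUnit_C.2 (inv_ne_zero (star_ne_zero.2 h)).isUnit).unit, rfl⟩

theorem tilde_monic {f : F[X]} (h : f.coeff 0 ≠ 0) : (tilde f).Monic := by
  rw [tilde, reverse_map_star, Monic, leadingCoeff_mul, leadingCoeff_C, leadingCoeff, natDegree_rev h,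
    coeff_rev, revAt_le le_rfl, Nat.sub_self]
  exact mul_inv_cancel₀ (star_ne_zero.2 h)

theorem tilde_natDegree {f : F[X]} (h : f.coeff 0 ≠ 0) : (tilde f).natDegree = f.natDegree := by
  rw [tilde, reverse_map_star, natDegree_mul_C (inv_ne_zero (star_ne_zero.2 h)), natDegree_rev h]

theorem tilde_coeff_zero {f : F[X]} (hm : f.Monic) (h : f.coeff 0 ≠ 0) : (tilde f).coeff 0 ≠ 0 := by
  rw [tilde, reverse_map_star, coeff_mul_C]
  exact mul_ne_zero (rev_coeff_zero_ne hm.ne_zero) (inv_ne_zero (star_ne_zero.2 h))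

theorem tilde_irreducible {f : F[X]} (hi : Irreducible f) (h : f.coeff 0 ≠ 0) : Irreducible (tilde f) :=
  (tilde_assoc h).irreducible (irreducible_rev hi h)

theorem tilde_tilde {f : F[X]} (hm : f.Monic) (h : f.coeff 0 ≠ 0) : tilde (tilde f) = f := by
  refine eq_of_monic_of_associated (tilde_monic (tilde_coeff_zero hm h)) hm ?_
  refine (tilde_assoc (tilde_coeff_zero hm h)).symm.trans ?_
  rw [tilde, reverse_map_star, rev_mul, rev_rev h, rev, map_C, reverse_C]
  exact associated_mul_unit_left _ _ (isUnit_C.2 ((inv_ne_zero (star_ne_zero.2 h)).isUnit.map _))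

theorem aeval_star (B : M) (g : F[X]) : star (aeval B g) = aeval (star B) (g.map (starRingEnd F)) := by
  induction g using Polynomial.induction_on' with
  | add a b ha hb => simp only [map_add, star_add, Polynomial.map_add, ha, hb]
  | monomial k a =>
    rw [aeval_monomial, map_monomial, aeval_monomial, Algebra.algebraMap_eq_smul_one, smul_mul_assoc, one_mul,
      star_smul, star_pow, Algebra.algebraMap_eq_smul_one, smul_mul_assoc, one_mul, starRingEnd_apply]

theorem card_ker_mul (U B : M) (hU : IsUnit U) :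
    Nat.card {v : Fin n → F // (U * B) *ᵥ v = 0} = Nat.card {v : Fin n → F // B *ᵥ v = 0} := by
  refine Nat.card_congr (Equiv.subtypeEquivRight fun v => ?_)
  rw [← Matrix.mulVec_mulVec]
  refine ⟨fun h => Matrix.mulVec_injective_iff_isUnit.2 hU (by rw [h, Matrix.mulVec_zero]), fun h => ?_⟩
  rw [h, Matrix.mulVec_zero]

theorem card_ker_eq (B : M) : Nat.card {v : Fin n → F // B *ᵥ v = 0} = Fintype.card F ^ (n - B.rank) := by
  classical
  have h := LinearMap.finrank_range_add_finrank_ker B.mulVecLin
  rw [Module.finrank_fin_fun] at h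
  have e : n - B.rank = Module.finrank F (LinearMap.ker B.mulVecLin) := by
    rw [Matrix.rank]; omega
  haveI := Fintype.ofFinite (LinearMap.ker B.mulVecLin)
  rw [e, ← Module.card_eq_pow_finrank, ← Nat.card_eq_fintype_card]
  exact Nat.card_congr (Equiv.subtypeEquivRight fun v => by rw [LinearMap.mem_ker, Matrix.mulVecLin_apply])

theorem card_ker_star (B : M) :
    Nat.card {v : Fin n → F // (star B) *ᵥ v = 0} = Nat.card {v : Fin n → F // B *ᵥ v = 0} := by
  have h1 : ∀ v, (star B) *ᵥ v = star (Bᵀ *ᵥ star v) := fun v => by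
    funext i
    simp only [Matrix.star_eq_conjTranspose, Matrix.mulVec, dotProduct, Matrix.conjTranspose_apply,
      Pi.star_apply, Matrix.transpose_apply, star_sum]
    exact Finset.sum_congr rfl fun j _ => by rw [star_mul', star_star]
  rw [card_ker_eq B, ← Matrix.rank_transpose B, ← card_ker_eq]
  refine Nat.card_congr (Equiv.subtypeEquiv ⟨star, star, star_star, star_star⟩ fun v => ?_)
  rw [h1, star_eq_zero]
  rfl

/-- Kernels of a polynomial and of its conjugate-reciprocal at a unitary matrix have equal size. -/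
theorem card_ker_tilde {A : M} (hA : star A * A = 1) {g g' : F[X]} (hg : Associated (rev g) g') :
    Nat.card {v : Fin n → F // aeval A g' *ᵥ v = 0} = Nat.card {v : Fin n → F // aeval A g *ᵥ v = 0} := by
  obtain ⟨u, rfl⟩ := hg
  have hu : IsUnit A := IsUnit.of_mul_eq_one_right _ hA
  rw [mul_comm, map_mul, card_ker_mul _ _ ((u.isUnit).map (aeval A)), rev]
  have hr := OrderBound.aeval_reverse hu.unit (g.map (starRingEnd F))
  rw [IsUnit.unit_spec] at hr
  have hinv : ((hu.unit⁻¹ : Mˣ) : M) = star A :=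
    Units.inv_eq_of_mul_eq_one_right (by rw [IsUnit.unit_spec]; exact mul_eq_one_comm.1 hA)
  rw [hr, card_ker_mul _ _ (hu.pow _), hinv, ← aeval_star, card_ker_star]

variable {A : Matrix (Fin n) (Fin n) F} (D : Data A)

/-- The key of an index. -/
def key (i : D.ι) : F[X] × ℕ := (D.P i, D.e i)

theorem sum_min [DecidableEq F[X]] (Q : F[X]) (k : ℕ) :
    ∑ i ∈ Finset.univ.filter (fun i => D.P i = Q), min (k + 1) (D.e i) =
      (∑ i ∈ Finset.univ.filter (fun i => D.P i = Q), min k (D.e i)) +
        (Finset.univ.filter (fun i => D.P i = Q ∧ k + 1 ≤ D.e i)).card := by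
  rw [← Finset.filter_filter, Finset.card_filter, ← Finset.sum_add_distrib]
  refine Finset.sum_congr rfl fun i _ => ?_
  split_ifs <;> omega

theorem card_ge [DecidableEq F[X]] (hA : star A * A = 1) {Q : F[X]} (hQ : Q.Monic) (hQi : Irreducible Q) (h0 : Q.coeff 0 ≠ 0)
    (k : ℕ) :
    (Finset.univ.filter (fun i => D.P i = Q ∧ k + 1 ≤ D.e i)).card =
      (Finset.univ.filter (fun i => D.P i = tilde Q ∧ k + 1 ≤ D.e i)).card := by
  have key : ∀ m, ∑ i ∈ Finset.univ.filter (fun i => D.P i = tilde Q), min m (D.e i) =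
      ∑ i ∈ Finset.univ.filter (fun i => D.P i = Q), min m (D.e i) := by
    intro m
    have hrev : Associated (rev (Q ^ m)) (tilde Q ^ m) := by
      induction m with
      | zero => rw [pow_zero, pow_zero, rev, Polynomial.map_one, ← C_1, reverse_C]
      | succ m ih => rw [pow_succ, pow_succ, rev_mul]; exact ih.mul_mul (tilde_assoc h0)
    have h := card_ker_tilde hA hrev
    rw [D.card_ker _ (tilde_monic h0) (tilde_irreducible hQi h0), D.card_ker _ hQ hQi, tilde_natDegree h0] at h
    exact Nat.eq_of_mul_eq_mul_left hQi.natDegree_pos (Nat.pow_right_injective Fintype.one_lt_card h)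
  have h1 := sum_min D Q k
  have h2 := sum_min D (tilde Q) k
  have := key k
  have := key (k + 1)
  omega

/-- The number of indices with given key is self-dual. -/
theorem card_fibre (hA : star A * A = 1) (i : D.ι) :
    Nat.card {j // key D j = key D i} = Nat.card {j // key D j = (tilde (D.P i), D.e i)} := by
  classical
  rw [Nat.card_eq_fintype_card, Nat.card_eq_fintype_card, Fintype.card_subtype, Fintype.card_subtype]
  obtain ⟨k, hk⟩ : ∃ k, D.e i = k + 1 := ⟨D.e i - 1, by have := D.pos i; omega⟩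
  have h1 := card_ge D hA (D.monic i) (D.irr i) (D.coeff0 i) k
  have h2 := card_ge D hA (D.monic i) (D.irr i) (D.coeff0 i) (k + 1)
  have split : ∀ Q : F[X], (Finset.univ.filter (fun j => D.P j = Q ∧ k + 1 ≤ D.e j)).card =
      (Finset.univ.filter (fun j => key D j = (Q, k + 1))).card +
        (Finset.univ.filter (fun j => D.P j = Q ∧ k + 1 + 1 ≤ D.e j)).card := by
    intro Q
    rw [Finset.card_filter, Finset.card_filter, Finset.card_filter, ← Finset.sum_add_distrib]
    refine Finset.sum_congr rfl fun j _ => ?_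
    simp only [key, Prod.mk.injEq]
    by_cases hj : D.P j = Q <;> simp [hj]
    split_ifs <;> omega
  have h3 := split (D.P i)
  have h4 := split (tilde (D.P i))
  rw [show key D i = (D.P i, k + 1) from Prod.ext rfl hk, hk]
  omega

/-- An involution of the indices exchanging each divisor with its dual. -/
theorem exists_perm (hA : star A * A = 1) :
    ∃ π : Equiv.Perm D.ι, (∀ i, π (π i) = i) ∧ ∀ i, D.P (π i) = tilde (D.P i) ∧ D.e (π i) = D.e i := by
  classical
  letI : LinearOrder (F[X] × ℕ) := linearOrderOfSTO WellOrderingRel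
  set ρ : F[X] × ℕ → F[X] × ℕ := fun x => (tilde x.1, x.2)
  have hρ : ∀ i, ρ (ρ (key D i)) = key D i := fun i => Prod.ext (tilde_tilde (D.monic i) (D.coeff0 i)) rfl
  have hρk : ∀ x, (∃ i, key D i = x) → Nonempty ({j // key D j = x} ≃ {j // key D j = ρ x}) := by
    rintro _ ⟨i, rfl⟩
    exact Finite.card_eq.1 (card_fibre D hA i)
  let G : F[X] × ℕ → D.ι → D.ι := fun x i =>
    if h : key D i = x then ((hρk x ⟨i, h⟩).some ⟨i, h⟩).1 else i
  let H : F[X] × ℕ → D.ι → D.ι := fun x i =>
    if h : key D i = ρ x ∧ ∃ j, key D j = x then ((hρk x h.2).some.symm ⟨i, h.1⟩).1 else i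
  have hG : ∀ x i, key D i = x → key D (G x i) = ρ x ∧ H x (G x i) = i := by
    intro x i h
    have h1 : key D (G x i) = ρ x := by
      simp only [G, dif_pos h]
      exact ((hρk x ⟨i, h⟩).some ⟨i, h⟩).2
    refine ⟨h1, ?_⟩
    simp only [H, dif_pos (show key D (G x i) = ρ x ∧ ∃ j, key D j = x from ⟨h1, i, h⟩)]
    simp only [G, dif_pos h]
    exact congrArg Subtype.val ((hρk x ⟨i, h⟩).some.symm_apply_apply ⟨i, h⟩)
  have hH : ∀ x i, key D i = ρ x → (∃ j, key D j = x) → key D (H x i) = x ∧ G x (H x i) = i := by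
    intro x i h hx
    have h1 : key D (H x i) = x := by
      simp only [H, dif_pos (show key D i = ρ x ∧ ∃ j, key D j = x from ⟨h, hx⟩)]
      exact ((hρk x hx).some.symm ⟨i, h⟩).2
    refine ⟨h1, ?_⟩
    simp only [G, dif_pos h1]
    simp only [H, dif_pos (show key D i = ρ x ∧ ∃ j, key D j = x from ⟨h, hx⟩)]
    exact congrArg Subtype.val ((hρk x hx).some.apply_symm_apply ⟨i, h⟩)
  have hsurj : ∀ i, ∃ j, key D j = ρ (key D i) := fun i => by
    obtain ⟨e⟩ := hρk _ ⟨i, rfl⟩
    exact ⟨_, (e ⟨i, rfl⟩).2⟩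
  let f : D.ι → D.ι := fun i =>
    if key D i < ρ (key D i) then G (key D i) i
    else if ρ (key D i) < key D i then H (ρ (key D i)) i else i
  have hkey : ∀ i, key D (f i) = ρ (key D i) ∧ f (f i) = i := by
    intro i
    rcases lt_trichotomy (key D i) (ρ (key D i)) with h | h | h
    · have hfi : f i = G (key D i) i := if_pos h
      obtain ⟨h1, h2⟩ := hG (key D i) i rfl
      refine ⟨hfi ▸ h1, ?_⟩
      rw [hfi]
      show ite _ _ _ = _
      rw [if_neg (by rw [h1, hρ]; exact lt_asymm h), if_pos (by rw [h1, hρ]; exact h), h1, hρ]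
      exact h2
    · have hfi : f i = i := by
        show ite _ _ _ = _
        rw [if_neg (fun c => (ne_of_lt c) h), if_neg (fun c => (ne_of_lt c) h.symm)]
      rw [hfi, hfi]
      exact ⟨h, rfl⟩
    · have hfi : f i = H (ρ (key D i)) i := by
        show ite _ _ _ = _
        rw [if_neg (lt_asymm h), if_pos h]
      obtain ⟨h1, h2⟩ := hH (ρ (key D i)) i (hρ i).symm (hsurj i)
      refine ⟨hfi ▸ h1, ?_⟩
      rw [hfi]
      show ite _ _ _ = _
      rw [if_pos (by rw [h1, hρ]; exact h), h1]
      exact h2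
  refine ⟨⟨f, f, fun i => (hkey i).2, fun i => (hkey i).2⟩, fun i => (hkey i).2, fun i => ?_⟩
  exact Prod.ext_iff.1 (hkey i).1

end Cfsg.Agent.SUClassCount
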