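import Cfsg.Agent.GLClassCount.Module
import Cfsg.Agent.SemiUnitary.Poly

/-! A matrix as multiplication by the root in a product of `F[X] / (P ^ e)` (owner: helper23). -/

set_option autoImplicit false
set_option linter.style.haveILetI false
set_option linter.unusedSectionVars false

namespace Cfsg.Agent.SUClassCount

open Polynomial Module Cfsg.Agent.GLClassCount
open scoped Matrix

universe u

variable {F : Type u} [Field F] [Fintype F]

/-- Elementary divisors of a matrix. -/
structure Data {n : ℕ} (A : Matrix (Fin n) (Fin n) F) where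
  ι : Type u
  fι : Fintype ι
  P : ι → F[X]
  e : ι → ℕ
  irr : ∀ i, Irreducible (P i)
  monic : ∀ i, (P i).Monic
  coeff0 : ∀ i, (P i).coeff 0 ≠ 0
  pos : ∀ i, 1 ≤ e i
  sum : ∑ i, e i * (P i).natDegree = n
  T : (Fin n → F) ≃ₗ[F] ((i : ι) → AdjoinRoot (P i ^ e i))
  hT : ∀ v, T (A *ᵥ v) = (fun i => AdjoinRoot.root (P i ^ e i)) * T v

attribute [instance] Data.fι

variable {n : ℕ}

/-- The identity map to `AdjoinRoot`. -/
def toAR (f : F[X]) : (F[X] ⧸ Ideal.span {f}) ≃ₗ[F] AdjoinRoot f where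
  toFun a := a
  invFun a := a
  left_inv _ := rfl
  right_inv _ := rfl
  map_add' _ _ := rfl
  map_smul' c a := by
    induction a using Submodule.Quotient.induction_on with
    | _ g => rfl

theorem toAR_smul (f h : F[X]) (a : F[X] ⧸ Ideal.span {f}) :
    toAR f (h • a) = AdjoinRoot.mk f h * toAR f a := by
  induction a using Submodule.Quotient.induction_on with
  | _ g => rfl

theorem exists_data' (A : GL (Fin n) F) : Nonempty (Data (A : Matrix (Fin n) (Fin n) F)) := by
  classical
  obtain ⟨ι, hι, P, e, hP, h0, hsum, ⟨Φ⟩⟩ := GLClassCount.exists_data A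
  have hd : ∀ i, ¬ 1 ≤ e i → Subsingleton (F[X] ⧸ Ideal.span {P i ^ e i}) := fun i hi => by
    rw [Submodule.Quotient.subsingleton_iff, Ideal.span_singleton_eq_top, show e i = 0 by omega, pow_zero]
    exact isUnit_one
  let Ψ := Φ.trans (dropTrivial _ _ hd)
  refine ⟨⟨{i // 1 ≤ e i}, inferInstance, fun i => P i, fun i => e i, fun i => (hP i).1, fun i => (hP i).2,
    fun i => h0 i i.2, fun i => i.2, ?_,
    ((AEval'.of _).trans (Ψ.restrictScalars F)).trans (LinearEquiv.piCongrRight fun i => toAR (P i.1 ^ e i.1)), fun v => ?_⟩⟩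
  · rw [← hsum, ← Finset.sum_subtype (Finset.univ.filter fun i => 1 ≤ e i) (by simp) (fun i => e i * (P i).natDegree)]
    refine Finset.sum_subset (Finset.subset_univ _) fun i _ hi => ?_
    simp only [Finset.mem_filter, Finset.mem_univ, true_and] at hi
    rw [show e i = 0 by omega, zero_mul]
  · refine _root_.funext fun i => ?_
    show toAR (P i.1 ^ e i.1) (Ψ (AEval'.of _ ((A : Matrix (Fin n) (Fin n) F) *ᵥ v)) i) = _
    rw [← Matrix.toLin'_apply, ← AEval'.X_smul_of, map_smul, Pi.smul_apply, toAR_smul, AdjoinRoot.mk_X]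
    rfl

namespace Data

variable {A : Matrix (Fin n) (Fin n) F} (D : Data A)

/-- The algebra. -/
abbrev R : Type u := (i : D.ι) → AdjoinRoot (D.P i ^ D.e i)

theorem monic_pow (i : D.ι) : (D.P i ^ D.e i).Monic := (D.monic i).pow _

/-- Its basis. -/
noncomputable def basis : Basis (Fin n) F D.R := Basis.ofEquivFun D.T.symm

theorem aeval_apply (g : F[X]) (v : Fin n → F) :
    D.T (aeval A g *ᵥ v) = (fun i => AdjoinRoot.mk (D.P i ^ D.e i) g) * D.T v := by
  induction g using Polynomial.induction_on generalizing v with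
  | C a =>
    funext i
    rw [aeval_C, Algebra.algebraMap_eq_smul_one, Matrix.smul_mulVec, Matrix.one_mulVec, map_smul,
      Pi.smul_apply, Pi.mul_apply, Algebra.smul_def, AdjoinRoot.mk_C]
    rfl
  | add g h hg hh =>
    rw [map_add, Matrix.add_mulVec, map_add, hg, hh]
    funext i
    simp only [Pi.add_apply, Pi.mul_apply, map_add, add_mul]
  | monomial m a ih =>
    rw [pow_succ', show (C a : F[X]) * (X * X ^ m) = X * (C a * X ^ m) by ring, map_mul (aeval A), aeval_X,
      ← Matrix.mulVec_mulVec, D.hT, ih]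
    funext i
    simp only [Pi.mul_apply, map_mul (AdjoinRoot.mk _), AdjoinRoot.mk_X, mul_assoc]

theorem card_ann_self {P : F[X]} (hP : P.Monic) (hi : Irreducible P) (k e : ℕ) :
    Nat.card {r : AdjoinRoot (P ^ e) // AdjoinRoot.mk (P ^ e) (P ^ k) * r = 0} =
      Fintype.card F ^ (P.natDegree * min k e) := by
  classical
  set m := min k e
  have hm : P ^ e = P ^ (e - m) * P ^ m := by rw [← pow_add, Nat.sub_add_cancel (min_le_right _ _)]
  let f : AdjoinRoot (P ^ m) → {r : AdjoinRoot (P ^ e) // AdjoinRoot.mk (P ^ e) (P ^ k) * r = 0} := fun r =>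
    ⟨AdjoinRoot.mk (P ^ e) (P ^ (e - m) * (AdjoinRoot.mk_surjective r).choose), by
      rw [← map_mul, AdjoinRoot.mk_eq_zero, ← mul_assoc, ← pow_add]
      exact dvd_mul_of_dvd_left (pow_dvd_pow _ (by omega)) _⟩
  have hf : Function.Bijective f := by
    constructor
    · intro r r' h
      have h1 : AdjoinRoot.mk (P ^ e) (P ^ (e - m) * (AdjoinRoot.mk_surjective r).choose) =
          AdjoinRoot.mk (P ^ e) (P ^ (e - m) * (AdjoinRoot.mk_surjective r').choose) := congrArg Subtype.val h
      rw [AdjoinRoot.mk_eq_mk, ← mul_sub, hm, mul_dvd_mul_iff_left (pow_ne_zero _ hi.ne_zero)] at h1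
      rw [← (AdjoinRoot.mk_surjective r).choose_spec, ← (AdjoinRoot.mk_surjective r').choose_spec,
        AdjoinRoot.mk_eq_mk]
      exact h1
    · rintro ⟨r, hr⟩
      obtain ⟨g, rfl⟩ := AdjoinRoot.mk_surjective r
      rw [← map_mul, AdjoinRoot.mk_eq_zero] at hr
      have hg : P ^ (e - m) ∣ g := by
        rcases le_total k e with hk | hk
        · rw [show m = k from min_eq_left hk]
          refine (mul_dvd_mul_iff_left (pow_ne_zero k hi.ne_zero)).1 ?_
          rwa [← pow_add, Nat.add_sub_cancel' hk]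
        · rw [show e - m = 0 by omega, pow_zero]
          exact one_dvd _
      obtain ⟨c, rfl⟩ := hg
      refine ⟨AdjoinRoot.mk (P ^ m) c, Subtype.ext ?_⟩
      show AdjoinRoot.mk (P ^ e) (P ^ (e - m) * (AdjoinRoot.mk_surjective (AdjoinRoot.mk (P ^ m) c)).choose) = _
      rw [AdjoinRoot.mk_eq_mk, ← mul_sub, hm]
      exact mul_dvd_mul_left _ (AdjoinRoot.mk_eq_mk.1 (AdjoinRoot.mk_surjective (AdjoinRoot.mk (P ^ m) c)).choose_spec)
  rw [← Nat.card_eq_of_bijective f hf]
  haveI : Module.Finite F (AdjoinRoot (P ^ m)) := (hP.pow m).finite_adjoinRoot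
  haveI : Finite (AdjoinRoot (P ^ m)) := Module.finite_of_finite F
  haveI := Fintype.ofFinite (AdjoinRoot (P ^ m))
  rw [Nat.card_eq_fintype_card, Module.card_eq_pow_finrank (K := F),
    (AdjoinRoot.powerBasis (hP.pow m).ne_zero).finrank, AdjoinRoot.powerBasis_dim, natDegree_pow, mul_comm]

theorem card_ann_ne {P Q : F[X]} (hP : P.Monic) (hQ : Q.Monic) (hi : Irreducible P) (hQi : Irreducible Q)
    (hne : P ≠ Q) (k e : ℕ) :
    Nat.card {r : AdjoinRoot (P ^ e) // AdjoinRoot.mk (P ^ e) (Q ^ k) * r = 0} = 1 := by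
  refine Nat.card_eq_one_iff_exists.2 ⟨⟨0, mul_zero _⟩, fun r => Subtype.ext ?_⟩
  obtain ⟨r, hr⟩ := r
  obtain ⟨g, rfl⟩ := AdjoinRoot.mk_surjective r
  rw [← map_mul, AdjoinRoot.mk_eq_zero] at hr
  have hcop : IsCoprime (P ^ e) (Q ^ k) := IsCoprime.pow ((hi.coprime_iff_not_dvd).2 fun h =>
    hne (eq_of_monic_of_associated hP hQ (hi.associated_of_dvd hQi h)))
  exact AdjoinRoot.mk_eq_zero.2 (hcop.dvd_of_dvd_mul_left hr)

/-- The kernel sizes. -/
theorem card_ker (Q : F[X]) (hQ : Q.Monic) (hQi : Irreducible Q) (k : ℕ) [DecidableEq F[X]] :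
    Nat.card {v : Fin n → F // aeval A (Q ^ k) *ᵥ v = 0} =
      Fintype.card F ^ (Q.natDegree * ∑ i ∈ Finset.univ.filter (fun i => D.P i = Q), min k (D.e i)) := by
  classical
  let E : {v : Fin n → F // aeval A (Q ^ k) *ᵥ v = 0} ≃
      ((i : D.ι) → {r : AdjoinRoot (D.P i ^ D.e i) // AdjoinRoot.mk (D.P i ^ D.e i) (Q ^ k) * r = 0}) :=
    (Equiv.subtypeEquiv D.T.toEquiv (q := fun r : D.R => ∀ i, AdjoinRoot.mk _ (Q ^ k) * r i = 0) fun v => by
      rw [← D.T.map_eq_zero_iff, D.aeval_apply]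
      exact _root_.funext_iff).trans (Equiv.subtypePiEquivPi (p := fun i r => AdjoinRoot.mk (D.P i ^ D.e i) (Q ^ k) * r = 0))
  rw [Nat.card_congr E, Nat.card_pi, Finset.mul_sum, ← Finset.prod_pow_eq_pow_sum, Finset.prod_filter]
  refine Finset.prod_congr rfl fun i _ => ?_
  split_ifs with h
  · subst h
    exact card_ann_self (D.monic i) (D.irr i) k (D.e i)
  · exact card_ann_ne (D.monic i) hQ (D.irr i) hQi h k (D.e i)

theorem det_blockDiag' {ι : Type*} [Fintype ι] [DecidableEq ι] {m : ι → Type*} [∀ i, Fintype (m i)]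
    [∀ i, DecidableEq (m i)] (M : ∀ i, Matrix (m i) (m i) F) :
    (Matrix.blockDiagonal' M).det = ∏ i, (M i).det := by
  classical
  letI : LinearOrder ι := LinearOrder.lift' (Fintype.equivFin ι) (Fintype.equivFin ι).injective
  rw [(Matrix.blockTriangular_blockDiagonal' M).det_fintype]
  refine Finset.prod_congr rfl fun i _ => ?_
  let e : {x : Σ i, m i // x.1 = i} ≃ m i := Equiv.sigmaSubtype i
  rw [← Matrix.det_reindex_self e]
  congr 1
  ext a b
  simp [e, Matrix.toSquareBlock_def, Equiv.sigmaSubtype, Matrix.blockDiagonal'_apply_eq]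

theorem norm_pi (a : D.R) : Algebra.norm F a = ∏ i, Algebra.norm F (a i) := by
  classical
  let bs := fun i => (AdjoinRoot.powerBasis (D.monic_pow i).ne_zero).basis
  rw [Algebra.norm_eq_matrix_det (Pi.basis bs)]
  rw [show Algebra.leftMulMatrix (Pi.basis bs) a =
      Matrix.blockDiagonal' (fun i => Algebra.leftMulMatrix (bs i) (a i)) from ?_]
  · rw [det_blockDiag']
    exact Finset.prod_congr rfl fun i _ => (Algebra.norm_eq_matrix_det (bs i) (a i)).symm
  · ext ⟨i, s⟩ ⟨j, t⟩
    rw [Algebra.leftMulMatrix_eq_repr_mul, Pi.basis_repr, Pi.basis_apply, Pi.mul_apply]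
    rcases eq_or_ne i j with rfl | hij
    · rw [Pi.single_eq_same, Matrix.blockDiagonal'_apply_eq, Algebra.leftMulMatrix_eq_repr_mul]
    · rw [Pi.single_eq_of_ne hij, mul_zero, map_zero, Matrix.blockDiagonal'_apply_ne _ _ _ hij]
      rfl

theorem det_eq : A.det = ∏ i, ((-1 : F) ^ (D.P i).natDegree * (D.P i).coeff 0) ^ D.e i := by
  classical
  haveI : ∀ i, Module.Finite F (AdjoinRoot (D.P i ^ D.e i)) := fun i => (D.monic_pow i).finite_adjoinRoot
  set x : D.R := fun i => AdjoinRoot.root (D.P i ^ D.e i)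
  have h : LinearMap.det (Matrix.toLin' A) = LinearMap.det (Algebra.lmul F D.R x) := by
    rw [← LinearMap.det_conj (Matrix.toLin' A) D.T]
    congr 1
    refine LinearMap.ext fun r => ?_
    show D.T (Matrix.toLin' A (D.T.symm r)) = x * r
    rw [Matrix.toLin'_apply, D.hT, D.T.apply_symm_apply]
  rw [← LinearMap.det_toLin', h, ← Algebra.norm_apply]
  have hpi := D.norm_pi
  rw [hpi]
  refine Finset.prod_congr rfl fun i _ => ?_
  set pb := AdjoinRoot.powerBasis (D.monic_pow i).ne_zero
  show Algebra.norm F pb.gen = _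
  rw [Algebra.PowerBasis.norm_gen_eq_coeff_zero_minpoly pb, AdjoinRoot.minpoly_powerBasis_gen_of_monic (D.monic_pow i),
    AdjoinRoot.powerBasis_dim, natDegree_pow, mul_pow, ← pow_mul, mul_comm (D.e i)]
  congr 1
  rw [← constantCoeff_apply, map_pow, constantCoeff_apply]

end Data

end Cfsg.Agent.SUClassCount
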