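import Cfsg.Agent.SUClassCount.Dual

/-! Centralisers with every determinant of norm one (owner: helper23). -/

set_option autoImplicit false
set_option linter.style.haveILetI false
set_option linter.unusedSectionVars false

namespace Cfsg.Agent.SUClassCount

open Polynomial Module Cfsg.Agent.SemiUnitary
open scoped Matrix

universe u

variable {F : Type u} [Field F] [Fintype F] [StarRing F] {n : ℕ}

/-- A semilinear map inverting the root. -/
theorem exists_hom {f g : F[X]} (hg : g.coeff 0 ≠ 0) (h : g ∣ rev f) :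
    ∃ τ : AdjoinRoot f →+* AdjoinRoot g, (∀ r, τ (AdjoinRoot.of f r) = AdjoinRoot.of g (star r)) ∧
      τ (AdjoinRoot.root f) * AdjoinRoot.root g = 1 := by
  have hroot : IsUnit (AdjoinRoot.root g) := by
    have h := AdjoinRoot.mk_self (f := g)
    conv at h => lhs; arg 2; rw [← X_mul_divX_add g]
    rw [map_add, map_mul, AdjoinRoot.mk_X, AdjoinRoot.mk_C] at h
    refine isUnit_of_mul_isUnit_left (y := AdjoinRoot.mk g g.divX) ?_
    rw [eq_neg_of_add_eq_zero_left h]
    exact ((hg.isUnit).map _).neg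
  have hinv : ((hroot.unit⁻¹ : (AdjoinRoot g)ˣ) : AdjoinRoot g) * AdjoinRoot.root g = 1 := by
    simpa using hroot.val_inv_mul
  have hz : f.eval₂ ((algebraMap F (AdjoinRoot g)).comp (starRingEnd F))
      ((hroot.unit⁻¹ : (AdjoinRoot g)ˣ) : AdjoinRoot g) = 0 := by
    rw [← eval₂_map]
    obtain ⟨t, ht⟩ := h
    have e := OrderBound.aeval_reverse hroot.unit (f.map (starRingEnd F))
    rw [IsUnit.unit_spec, show (f.map (starRingEnd F)).reverse = g * t from ht, map_mul, AdjoinRoot.aeval_eq g,
      AdjoinRoot.mk_self, zero_mul] at e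
    exact ((hroot.pow _).mul_right_eq_zero).1 e.symm
  exact ⟨AdjoinRoot.lift _ _ hz, fun r => AdjoinRoot.lift_of hz, by rw [AdjoinRoot.lift_root hz]; exact hinv⟩

/-- A representation carrying the involution to the conjugate transpose, similar to the regular one. -/
theorem exists_rep_similar {R : Type*} [CommRing R] [Algebra F R] [Finite R] (hns : ∃ a : F, star a ≠ a)
    (hR : Frob (F := F) R) (σ : R ≃+* R) (hσ : ∀ a, σ (σ a) = a)
    (halg : ∀ r, σ (algebraMap F R r) = algebraMap F R (star r)) (b : Basis (Fin n) F R) :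
    ∃ C : GL (Fin n) F, ∀ a,
      star ((C : Matrix (Fin n) (Fin n) F) * Algebra.leftMulMatrix b a * ((C⁻¹ : GL (Fin n) F) : Matrix (Fin n) (Fin n) F)) =
        (C : Matrix (Fin n) (Fin n) F) * Algebra.leftMulMatrix b (σ a) * ((C⁻¹ : GL (Fin n) F) : Matrix (Fin n) (Fin n) F) := by
  classical
  obtain ⟨μ, hnd, hsym⟩ := exists_sym_form hns hR σ hσ halg
  have hsmul : ∀ (r : F) (a : R), σ (r • a) = star r • σ a := fun r a => by
    rw [Algebra.smul_def, map_mul, halg, ← Algebra.smul_def]
  let J : Matrix (Fin n) (Fin n) F := fun i j => μ (σ (b i) * b j)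
  have hright : ∀ (z y : R), ∑ k, μ (z * b k) * b.repr y k = μ (z * y) := fun z y => by
    conv_rhs => rw [← b.sum_repr y, Finset.mul_sum, map_sum]
    exact Finset.sum_congr rfl fun k _ => by rw [mul_smul_comm, map_smul, smul_eq_mul, mul_comm]
  have hleft : ∀ (x y : R), ∑ k, star (b.repr x k) * μ (σ (b k) * y) = μ (σ x * y) := fun x y => by
    conv_rhs => rw [← b.sum_repr x, map_sum, Finset.sum_mul, map_sum]
    exact Finset.sum_congr rfl fun k _ => by rw [hsmul, smul_mul_assoc, map_smul, smul_eq_mul]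
  have hJ : star J = J := by
    ext i j
    show star (μ (σ (b j) * b i)) = μ (σ (b i) * b j)
    rw [← hsym, map_mul, hσ, mul_comm]
  have hJu : IsUnit J := by
    rw [← Matrix.mulVec_injective_iff_isUnit]
    intro v w h
    have h' : J.mulVec (v - w) = 0 := by rw [Matrix.mulVec_sub, h, sub_self]
    refine sub_eq_zero.1 ?_
    set y := b.equivFun.symm (v - w) with hy
    have hrep : ∀ k, b.repr y k = (v - w) k := fun k => by
      rw [hy, ← b.equivFun_apply, LinearEquiv.apply_symm_apply]
    have hy0 : y = 0 := by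
      refine hnd y fun c => ?_
      have hb : ∀ i, μ (σ (b i) * y) = 0 := fun i => by
        rw [← hright]
        have := congrFun h' i
        simp only [Matrix.mulVec, dotProduct, Pi.zero_apply] at this
        simpa [J, hrep] using this
      rw [mul_comm, ← hσ c, ← hleft]
      exact Finset.sum_eq_zero fun k _ => by rw [hb, mul_zero]
    funext k
    rw [← hrep, hy0]
    simp
  obtain ⟨C, hC⟩ := exists_congr_one hns hJu hJ
  let L := Algebra.leftMulMatrix b
  have hadj : ∀ a, star (L a) * J = J * L (σ a) := by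
    intro a
    ext i j
    rw [Matrix.mul_apply, Matrix.mul_apply]
    simp only [L, J, Matrix.star_apply, Algebra.leftMulMatrix_eq_repr_mul]
    rw [hleft, hright, map_mul σ]
    ring_nf
  refine ⟨C, fun a => ?_⟩
  have h1 : star ((C⁻¹ : GL (Fin n) F) : Matrix (Fin n) (Fin n) F) * (star (C : Matrix (Fin n) (Fin n) F)) = 1 := by
    rw [← star_mul, Units.mul_inv, star_one]
  calc _ = star ((C⁻¹ : GL (Fin n) F) : Matrix (Fin n) (Fin n) F) * (star (L a) * J) *
        ((C⁻¹ : GL (Fin n) F) : Matrix (Fin n) (Fin n) F) := by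
          rw [← hC, star_mul, star_mul]
          simp [L, mul_assoc]
    _ = _ := by
          rw [hadj, ← hC]
          simp only [L, ← mul_assoc, h1, one_mul]

/-- A unitary matrix with an elementary divisor of exponent one commutes with unitary matrices of every
determinant of norm one. -/
theorem exists_centralizer (hns : ∃ a : F, star a ≠ a) {A : GL (Fin n) F}
    (hA : star (A : Matrix (Fin n) (Fin n) F) * (A : Matrix (Fin n) (Fin n) F) = 1)
    (D : Data (A : Matrix (Fin n) (Fin n) F)) (i₀ : D.ι) (he : D.e i₀ = 1) {d : F} (hd : d * star d = 1) :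
    ∃ u : GL (Fin n) F, star (u : Matrix (Fin n) (Fin n) F) * (u : Matrix (Fin n) (Fin n) F) = 1 ∧ u * A = A * u ∧
      (u : Matrix (Fin n) (Fin n) F).det = d := by
  classical
  obtain ⟨π, hπ, hπk⟩ := exists_perm D hA
  have hc0 : ∀ i, (D.P i ^ D.e i).coeff 0 ≠ 0 := fun i => by
    rw [← constantCoeff_apply, map_pow, constantCoeff_apply]
    exact pow_ne_zero _ (D.coeff0 i)
  have hdvd : ∀ i, D.P i ^ D.e i ∣ rev (D.P (π i) ^ D.e (π i)) := by
    intro i
    have h : ∀ m, rev (D.P (π i) ^ m) = rev (D.P (π i)) ^ m := by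
      intro m
      induction m with
      | zero => rw [pow_zero, pow_zero, rev, Polynomial.map_one, ← C_1, reverse_C]
      | succ m ih => rw [pow_succ, pow_succ, rev_mul, ih]
    rw [h, (hπk i).2]
    refine pow_dvd_pow_of_dvd ?_ _
    rw [(hπk i).1]
    refine Associated.dvd ?_
    refine (Associated.of_eq (tilde_tilde (D.monic i) (D.coeff0 i)).symm).trans (tilde_assoc ?_).symm
    exact tilde_coeff_zero (D.monic i) (D.coeff0 i)
  choose τ hτc hτr using fun i => exists_hom (hc0 i) (hdvd i)
  haveI : ∀ i, Module.Finite F (AdjoinRoot (D.P i ^ D.e i)) := fun i => (D.monic_pow i).finite_adjoinRoot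
  haveI : ∀ i, Finite (AdjoinRoot (D.P i ^ D.e i)) := fun i => Module.finite_of_finite F
  let s : D.R →+* D.R := RingHom.pi fun i => (τ i).comp (Pi.evalRingHom _ (π i))
  have hs : ∀ a i, s a i = τ i (a (π i)) := fun a i => rfl
  have hss : ∀ a, s (s a) = a := by
    intro a
    choose gg hgg using fun j => AdjoinRoot.mk_surjective (a j)
    funext i
    rw [hs, hs, ← hgg, ← hgg]
    have hcomp : ((τ i).comp (τ (π i))).comp (AdjoinRoot.mk (D.P (π (π i)) ^ D.e (π (π i)))) =
        AdjoinRoot.mk (D.P i ^ D.e i) := by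
      refine Polynomial.ringHom_ext (fun r => ?_) ?_
      · show τ i (τ (π i) (AdjoinRoot.mk _ (C r))) = _
        rw [AdjoinRoot.mk_C, AdjoinRoot.mk_C, hτc, hτc, star_star]
      · show τ i (τ (π i) (AdjoinRoot.mk _ X)) = _
        rw [AdjoinRoot.mk_X, AdjoinRoot.mk_X]
        have h1 := congrArg (τ i) (hτr (π i))
        rw [map_mul, map_one] at h1
        calc τ i (τ (π i) (AdjoinRoot.root _))
            = τ i (τ (π i) (AdjoinRoot.root _)) * (τ i (AdjoinRoot.root _) * AdjoinRoot.root _) := by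
              rw [hτr i, mul_one]
          _ = _ := by rw [← mul_assoc, h1, one_mul]
    rw [show τ i (τ (π i) (AdjoinRoot.mk _ (gg (π (π i))))) = AdjoinRoot.mk _ (gg (π (π i))) from
      RingHom.congr_fun hcomp _, hπ i]
  let σ : D.R ≃+* D.R := RingEquiv.ofRingHom s s (RingHom.ext hss) (RingHom.ext hss)
  have halg : ∀ r, σ (algebraMap F D.R r) = algebraMap F D.R (star r) := fun r => by
    funext i
    show τ i (algebraMap F (AdjoinRoot _) r) = algebraMap F (AdjoinRoot _) (star r)
    exact hτc i r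
  have hfrob : Frob (F := F) D.R := by
    choose μ hμ using fun i => frob_adjoinRoot (D.monic_pow i)
    refine ⟨∑ i, (μ i).comp (LinearMap.proj i), fun a ha => funext fun i => hμ i _ fun b => ?_⟩
    have h := ha (Pi.single i b)
    rw [LinearMap.sum_apply, Finset.sum_eq_single i (fun j _ hj => by simp [Pi.single_eq_of_ne hj]) (by simp)] at h
    simpa using h
  set x : D.R := fun i => AdjoinRoot.root (D.P i ^ D.e i)
  have hσx : σ x * x = 1 := funext fun i => hτr i
  obtain ⟨C, hC⟩ := exists_rep_similar hns hfrob σ hss halg D.basis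
  let U : D.R →* Matrix (Fin n) (Fin n) F :=
    { toFun := fun a => (C : Matrix (Fin n) (Fin n) F) * Algebra.leftMulMatrix D.basis a *
        ((C⁻¹ : GL (Fin n) F) : Matrix (Fin n) (Fin n) F)
      map_one' := by simp
      map_mul' := fun a b => by simp [mul_assoc] }
  have hUs : ∀ a, star (U a) = U (σ a) := hC
  have hUdet : ∀ a, (U a).det = Algebra.norm F a := fun a => by
    show ((C : Matrix (Fin n) (Fin n) F) * _ * ((C⁻¹ : GL (Fin n) F) : Matrix (Fin n) (Fin n) F)).det = _
    rw [Matrix.coe_units_inv, Matrix.det_conj C.isUnit, Algebra.norm_eq_matrix_det D.basis]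
  have hLx : Algebra.leftMulMatrix D.basis x = (A : Matrix (Fin n) (Fin n) F) := by
    ext k l
    rw [Algebra.leftMulMatrix_eq_repr_mul, Data.basis, Basis.ofEquivFun_repr_apply, Basis.coe_ofEquivFun]
    show D.T.symm (x * D.T (Pi.single l 1)) k = _
    rw [← D.hT, D.T.symm_apply_apply, Matrix.mulVec_single_one]
    rfl
  have hUx : star (U x) * U x = 1 := by rw [hUs, ← map_mul, hσx, map_one]
  have hUxv : U x = ((C * A * C⁻¹ : GL (Fin n) F) : Matrix (Fin n) (Fin n) F) := by
    show (C : Matrix (Fin n) (Fin n) F) * _ * _ = _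
    rw [hLx]
    rfl
  rw [hUxv] at hUx
  obtain ⟨T, hT, hTA⟩ := exists_unitary_conj hns hA hUx (S := C) rfl
  -- the element of the algebra
  obtain ⟨a, ha⟩ := hns
  obtain ⟨v, hv⟩ := exists_div_eq (starRingAut (R := F)) star_star
    ⟨a, (sub_ne_zero.2 (Ne.symm ha)).isUnit⟩ hd
  haveI hFi : Fact (Irreducible (D.P i₀ ^ D.e i₀)) := ⟨by rw [he, pow_one]; exact D.irr i₀⟩
  obtain ⟨w₁, hw₁⟩ := exists_norm_field hFi.out (D.monic_pow i₀) (v : F)
  have hw0 : IsUnit w₁ := isUnit_iff_ne_zero.2 fun h => v.ne_zero (by rw [← hw₁, h, Algebra.norm_zero])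
  set w : D.R := Pi.mulSingle i₀ w₁ with hwdef
  have hNw : Algebra.norm F w = v := by
    rw [show Algebra.norm F w = ∏ i, Algebra.norm F (w i) from ?_]
    · rw [Finset.prod_eq_single i₀ (fun j _ hj => by rw [hwdef, Pi.mulSingle_eq_of_ne hj, map_one]) (by simp),
        hwdef, Pi.mulSingle_eq_same, hw₁]
    · exact Data.norm_pi D w
  obtain ⟨t, ht⟩ : IsUnit w := Pi.isUnit_iff.2 fun j => by
    rcases eq_or_ne j i₀ with rfl | hj
    · rwa [hwdef, Pi.mulSingle_eq_same]
    · rw [hwdef, Pi.mulSingle_eq_of_ne hj]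
      exact isUnit_one
  let σu : D.Rˣ →* D.Rˣ := Units.map (σ : D.R →* D.R)
  set z : D.Rˣ := t * (σu t)⁻¹ with hz
  have hσz : σu z * z = 1 := by
    have : σu (σu t) = t := Units.ext (hss _)
    rw [hz, map_mul, map_inv, this, mul_assoc, inv_mul_cancel_left, mul_inv_cancel]
  have hdetz : (U z).det = d := by
    have h1 : (U z).det * (U (σ w)).det = (U w).det := by
      rw [← Matrix.det_mul, ← map_mul, ← ht,
        show (σ (t : D.R)) = ((σu t : D.Rˣ) : D.R) from rfl, ← Units.val_mul, hz, inv_mul_cancel_right]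
    rw [← hUs, Matrix.star_eq_conjTranspose, Matrix.det_conjTranspose, hUdet w, hNw] at h1
    exact mul_right_cancel₀ (star_ne_zero.2 v.ne_zero) (h1.trans (show d * star (v : F) = v from hv).symm)
  have hUz : star (U z) * U z = 1 := by
    rw [hUs, ← map_mul, show σ (z : D.R) * z = 1 from congrArg Units.val hσz, map_one]
  let Z : GL (Fin n) F := (IsUnit.of_mul_eq_one_right _ hUz).unit
  have hZc : Z * (C * A * C⁻¹) = (C * A * C⁻¹) * Z := by
    refine Units.ext ?_
    rw [Units.val_mul, Units.val_mul _ Z, ← hUxv, IsUnit.unit_spec, ← map_mul, ← map_mul, mul_comm]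
  refine ⟨T⁻¹ * Z * T, ?_, ?_, ?_⟩
  · have uni : ∀ V : GL (Fin n) F, star (V : Matrix (Fin n) (Fin n) F) * V = 1 ↔ star V * V = 1 := fun V =>
      ⟨fun h => Units.ext h, fun h => congrArg Units.val h⟩
    have hZ : star Z * Z = 1 := (uni Z).1 hUz
    rw [uni] at hT ⊢
    have e1 : star T = T⁻¹ := eq_inv_of_mul_eq_one_left hT
    have e2 : star Z = Z⁻¹ := eq_inv_of_mul_eq_one_left hZ
    rw [star_mul, star_mul, star_inv, e1, e2]
    group
  · rw [← hTA] at hZc
    calc T⁻¹ * Z * T * A = T⁻¹ * (Z * (T * A * T⁻¹)) * T := by group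
      _ = A * (T⁻¹ * Z * T) := by rw [hZc]; group
  · rw [Units.val_mul, Units.val_mul, Matrix.coe_units_inv, Matrix.det_conj' T.isUnit]
    exact hdetz

end Cfsg.Agent.SUClassCount
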